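import Cfsg.Agent.H952.F4.Gen

/-!
# S5927: generating triples of `A₉`, `A₁₀`, `A₁₁` (helper288; triples for 9, 11 found by helper905)
-/

set_option autoImplicit false

namespace Cfsg.Agent.H288.E6

open Equiv Equiv.Perm
open Cfsg.Agent.H952.F4.Gen (mem_of_star ev_mem)

theorem gen_of {n : ℕ} (x y : Perm (Fin (n + 2))) (hx : sign x = 1) (hy : sign y = 1)
    (W : Fin (n + 2) → List (Fin 4)) (hW : ∀ k, k ≠ 0 → Cfsg.Agent.H952.F4.Gen.ev x y (W k) = swap 0 1 * swap 0 k) :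
    Subgroup.closure {(⟨x, mem_alternatingGroup.2 hx⟩ : ↥(alternatingGroup (Fin (n + 2)))),
      ⟨y, mem_alternatingGroup.2 hy⟩} = ⊤ := by
  rw [eq_top_iff]
  intro σ _
  have h1 : (σ : Perm (Fin (n + 2))) ∈ Subgroup.closure {x, y} := by
    refine mem_of_star _ ?_ ?_ σ.2
    · rw [Subgroup.closure_le]
      rintro z (rfl | rfl)
      · exact mem_alternatingGroup.2 hx
      · exact mem_alternatingGroup.2 hy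
    · intro k hk
      rw [← hW k hk]
      exact ev_mem (Subgroup.subset_closure (by simp)) (Subgroup.subset_closure (by simp)) _
  have h2 : (Subgroup.closure {(⟨x, mem_alternatingGroup.2 hx⟩ : ↥(alternatingGroup (Fin (n + 2)))),
      ⟨y, mem_alternatingGroup.2 hy⟩}).map (alternatingGroup (Fin (n + 2))).subtype = Subgroup.closure {x, y} := by
    rw [MonoidHom.map_closure, Set.image_pair]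
    rfl
  rw [← h2] at h1
  obtain ⟨τ, hτ, h3⟩ := h1
  rwa [← Subtype.ext h3]

theorem gen9 : ∃ x y b : ↥(alternatingGroup (Fin 9)), Subgroup.closure {x, y} = ⊤ ∧ x * x = 1 ∧ y ^ 4 = 1 ∧ (x * y) ^ 2 ≠ 1 ∧ ((x * y) ^ 2) ^ 3 = 1 ∧
    b * (x * y) ^ 2 * b⁻¹ = ((x * y) ^ 2)⁻¹ := by
  refine ⟨⟨c[0, 2] * c[1, 3] * c[5, 8] * c[6, 7], mem_alternatingGroup.2 (by decide +kernel)⟩,
    ⟨c[0, 4, 6, 3] * c[1, 7, 5, 8], mem_alternatingGroup.2 (by decide +kernel)⟩,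
    ⟨c[3, 7] * c[4, 8], mem_alternatingGroup.2 (by decide +kernel)⟩,
    gen_of (n := 7) _ _ (by decide +kernel) (by decide +kernel)
    ![[], [],
    [3, 0, 3, 0, 2, 0, 2, 0, 3, 0, 2, 0, 2, 0, 3, 0, 2, 2, 0, 2, 0, 2, 2, 0, 2, 2, 0, 2],
    [0, 2, 0, 3, 0, 2, 0, 2, 0, 3, 0, 3, 0, 2, 0, 3, 0, 3, 0, 2, 0],
    [2, 0, 3, 0, 2, 0, 2, 0, 3, 0, 3, 0, 2, 0, 2, 2, 0, 2, 0],
    [3, 0, 2, 2, 0, 2, 0, 3, 0, 2, 0, 2, 0, 3, 0, 3, 0, 2, 0, 3, 0, 3, 0, 2, 0, 2, 2, 0, 2],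
    [3, 0, 2, 0, 3, 0, 3, 0, 2, 0, 2, 0, 3, 0, 3, 0, 2, 2, 0, 2, 2],
    [0, 2, 0, 2, 0, 3, 0, 2, 0, 2, 0, 3, 0, 2, 0, 2, 0, 3, 0, 3, 0, 2, 2, 0, 2, 0, 2],
    [0, 2, 0, 3, 0, 2, 0, 2, 0, 3, 0, 2, 2, 0, 2, 0, 2, 2, 0, 2, 0, 2]]
    (by decide +kernel), ?_⟩
  decide +kernel

theorem gen10 : ∃ x y b : ↥(alternatingGroup (Fin 10)), Subgroup.closure {x, y} = ⊤ ∧ x * x = 1 ∧ y ≠ 1 ∧ y ^ 3 = 1 ∧ b * y * b⁻¹ = y⁻¹ ∧ (x * y) ^ 8 = 1 := by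
  refine ⟨⟨c[0, 8] * c[1, 7] * c[2, 4] * c[6, 9], mem_alternatingGroup.2 (by decide +kernel)⟩,
    ⟨c[0, 6, 3] * c[1, 9, 4] * c[2, 5, 7], mem_alternatingGroup.2 (by decide +kernel)⟩,
    ⟨c[1, 2] * c[3, 6] * c[4, 5] * c[7, 9], mem_alternatingGroup.2 (by decide +kernel)⟩,
    gen_of (n := 8) _ _ (by decide +kernel) (by decide +kernel)
    ![[], [],
    [2, 0, 2, 0, 3, 0, 2, 0, 3, 0, 3, 0, 2, 0, 2, 0, 3, 0, 3, 0, 3, 0, 2, 0, 3, 0, 2, 0, 2, 0, 3, 0, 2, 0, 3, 0, 2,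
      0, 2],
    [2, 0, 3, 0, 3, 0, 3, 0, 2, 0, 2, 0, 3, 0, 2, 0, 2, 0, 3, 0, 2, 0, 2, 0, 3, 0, 2, 0, 2, 0, 3, 0, 2, 0, 3, 0, 2,
      0, 3],
    [3, 0, 2, 0, 3, 0, 3, 0, 2, 0, 3, 0, 3, 0, 2, 0, 3, 0, 3, 0, 2, 0, 3, 0, 3, 0, 2, 0, 3, 0],
    [3, 0, 2, 0, 2, 0, 3, 0, 2, 0, 2, 0, 3, 0, 2, 0, 2, 0, 3, 0, 2, 0, 2, 0, 3, 0, 2, 0, 2, 0],
    [0, 3, 0, 2, 0, 3, 0, 3, 0, 2, 0, 3, 0, 2, 0, 3, 0, 2, 0, 2, 0, 3, 0, 3, 0, 2, 0, 3, 0, 2, 0, 3, 0, 2, 0, 2, 0,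
      3, 0, 2, 0, 3, 0, 2],
    [2, 0, 2, 0, 3, 0, 2, 0, 2, 0, 3, 0, 2, 0, 2, 0, 3, 0, 2, 0, 3, 0, 3, 0, 2, 0, 3, 0, 3, 0, 2, 0, 3, 0, 2, 0, 3,
      0, 3, 0, 3, 0],
    [2, 0, 2, 0, 2, 0, 3, 0, 3, 0, 2, 0, 3, 0, 2, 0, 3, 0, 2, 0, 3, 0, 2, 0, 3, 0, 2, 0, 3, 0, 3, 0, 2, 0, 2, 0],
    [2, 0, 3, 0, 3, 0, 2, 0, 2, 0, 3, 0, 2, 0, 2, 0, 3, 0, 2, 0, 2, 0, 3, 0, 2, 0, 3, 0, 3, 0, 2, 0, 3, 0, 3, 0, 2,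
      0, 3, 0, 2, 0, 2]]
    (by decide +kernel), ?_⟩
  decide +kernel

theorem gen11 : ∃ x y b c : ↥(alternatingGroup (Fin 11)), Subgroup.closure {x, y} = ⊤ ∧ x * x = 1 ∧ y ≠ 1 ∧ y ^ 5 = 1 ∧ b * y * b⁻¹ = y ^ 2 ∧
    x * y ≠ 1 ∧ (x * y) ^ 5 = 1 ∧ c * (x * y) * c⁻¹ = (x * y) ^ 2 := by
  refine ⟨⟨c[0, 10] * c[2, 3] * c[4, 6] * c[5, 8], mem_alternatingGroup.2 (by decide +kernel)⟩,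
    ⟨c[0, 2, 1, 6, 10] * c[3, 7, 9, 4, 5], mem_alternatingGroup.2 (by decide +kernel)⟩,
    ⟨c[1, 10, 6, 2] * c[4, 7, 9, 5], mem_alternatingGroup.2 (by decide +kernel)⟩,
    ⟨c[2, 5, 4, 8] * c[3, 7, 6, 9], mem_alternatingGroup.2 (by decide +kernel)⟩,
    gen_of (n := 9) _ _ (by decide +kernel) (by decide +kernel)
    ![[], [],
    [3, 0, 2, 2, 0, 2, 0, 3, 3, 0, 3, 3, 0, 2, 0, 2, 2, 0, 3, 0, 3, 3, 0],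
    [3, 0, 2, 2, 0, 2, 0, 3, 0, 3, 3, 0, 3, 3, 0, 3, 0, 2, 0, 2, 2, 0, 2, 0, 3, 3, 0, 3, 3, 0, 2, 2],
    [0, 2, 0, 3, 3, 0, 3, 0, 2, 2, 0, 2, 2, 0, 3, 0, 3, 3, 0, 2, 0, 2, 2],
    [0, 2, 2, 0, 2, 0, 3, 3, 0, 2, 2, 0, 3, 3, 0, 3, 3, 0, 3, 3, 0, 2, 2, 0, 3, 3, 0, 2],
    [0, 2, 0, 3, 0, 2, 0, 3, 3, 0, 2, 2, 0, 2, 0, 3, 3, 0, 2, 0, 2, 2, 0, 3, 3, 0, 2, 0, 3, 0, 2, 0, 3],
    [0, 3, 3, 0, 3, 3, 0, 2, 0, 2, 2, 0, 2, 0, 3, 0, 3, 3, 0, 3, 3, 0, 3, 0, 2, 0, 2, 2, 0, 2],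
    [3, 3, 0, 3, 0, 2, 2, 0, 3, 3, 0, 2, 2, 0, 2, 2, 0, 2, 2, 0, 3, 3, 0, 2, 2, 0, 3, 0],
    [2, 2, 0, 2, 2, 0, 3, 0, 3, 3, 0, 3, 0, 2, 0, 2, 2, 0, 2, 2, 0, 2, 0, 3, 0, 3, 3, 0, 3, 0],
    [2, 2, 0, 2, 0, 3, 0, 2, 0, 3, 3, 0, 2, 2, 0, 2, 0, 3, 3, 0, 2, 0, 2, 2, 0, 3, 3, 0, 2, 0, 3, 0, 2, 0, 2, 2]]
    (by decide +kernel), ?_⟩
  decide +kernel

end Cfsg.Agent.H288.E6
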