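import Mathlib
import Cfsg.Agent.H163.E6.Bgrp
import Cfsg.Agent.H958.SixC.Defs
import Cfsg.Agent.H958.SixC.Conc
import Cfsg.Agent.H401.E6Grp
import Cfsg.Agent.H288.E6.Gen

/-!
# S5927, S5928: `sixc_two`, BOX G: the relations of the three-fold cover of `A₆` (helper288)
-/

set_option autoImplicit false
set_option linter.unusedSectionVars false

namespace Cfsg.Agent.H288.E6.C6G

open Equiv Equiv.Perm
open Cfsg.Agent.H958.SixC
open Cfsg.Agent.H163.E6.SixC (z0 g10 g20 t0 a0 b0)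
open Cfsg.Agent.H401.E6Three (iota)
open Cfsg.Agent.H288.E6 (gen_of)

abbrev A6 := ↥(alternatingGroup (Fin 6))

/-- `(0 1 2 3 4)` in `A₅` -/
def k5 : ↥(alternatingGroup (Fin 5)) := ⟨c[0, 1, 2, 3, 4], Perm.mem_alternatingGroup.2 (by decide +kernel)⟩
/-- `(0 1)(3 4)` in `A₅` -/
def x5 : ↥(alternatingGroup (Fin 5)) := ⟨c[0, 1] * c[3, 4], Perm.mem_alternatingGroup.2 (by decide +kernel)⟩
/-- `(1 4 5)` -/
def e0 : A6 := ⟨c[1, 4, 5], Perm.mem_alternatingGroup.2 (by decide +kernel)⟩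
/-- the element conjugating `g10` into `g20` -/
def v0 : A6 := g10 * z0 * g10 * z0⁻¹ * g10 * z0⁻¹

theorem f_k5 : iota k5 = z0 := by decide +kernel
theorem f_x5 : iota x5 = xx z0 g10 := by decide +kernel
theorem f_k5' : k5 ^ 5 = 1 := by decide +kernel
theorem f_x5' : x5 * x5 = 1 := by decide +kernel
theorem f_z5 : z0 ^ 5 = 1 := by decide +kernel
theorem f_g1 : g10 * g10 = 1 := by decide +kernel
theorem f_v : v0 * g10 * v0⁻¹ = g20 := by decide +kernel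
theorem f_t : t0 * t0 = 1 := by decide +kernel
theorem f_tz : t0 * z0 * t0⁻¹ = z0⁻¹ := by decide +kernel
theorem f_r2 : g10 * z0⁻¹ * z0⁻¹ * g10 * z0 * g10 = z0 * xx z0 g10 * z0⁻¹ * xx z0 g10 * z0⁻¹ := by decide +kernel
theorem f_r2' : g20 * z0⁻¹ * z0⁻¹ * g20 * z0 * g20 = z0 * xx z0 g20 * z0⁻¹ * xx z0 g20 * z0⁻¹ := by decide +kernel
theorem f_r4 : g10 * z0 * g10 * z0⁻¹ * g10 = xx z0 g10 * z0 * xx z0 g10 * z0⁻¹ * xx z0 g10 := by decide +kernel
theorem f_r4' : g20 * z0 * g20 * z0⁻¹ * g20 = xx z0 g20 * z0 * xx z0 g20 * z0⁻¹ * xx z0 g20 := by decide +kernel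
theorem f_c : (xx z0 g10 * z0) ^ 3 = 1 := by decide +kernel
theorem f_c' : (xx z0 g20 * z0) ^ 3 = 1 := by decide +kernel
theorem f_e : e0 ^ 3 = 1 := by decide +kernel
theorem f_e' : (e0⁻¹ * z0) ^ 3 = 1 := by decide +kernel
theorem f_i1 : ∃ c : A6, c * (xx z0 g10 * z0) * c⁻¹ = (xx z0 g10 * z0)⁻¹ := by decide +kernel
theorem f_i2 : ∃ c : A6, c * (xx z0 g20 * z0) * c⁻¹ = (xx z0 g20 * z0)⁻¹ := by decide +kernel
theorem f_i3 : ∃ c : A6, c * e0 * c⁻¹ = e0⁻¹ := by decide +kernel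
theorem f_i4 : ∃ c : A6, c * (e0⁻¹ * z0) * c⁻¹ = (e0⁻¹ * z0)⁻¹ := by decide +kernel
theorem f_j1 : ∃ c : A6, c * a0 * c⁻¹ = xx z0 g10 * z0 := by decide +kernel
theorem f_j2 : ∃ c : A6, c * (a0 * b0) * c⁻¹ = xx z0 g20 * z0 := by decide +kernel
theorem f_j3 : ∃ c : A6, c * a0 * c⁻¹ = e0 := by decide +kernel
theorem f_j4 : ∃ c : A6, c * (a0 * b0) * c⁻¹ = e0⁻¹ * z0 := by decide +kernel
theorem f_k (i : Fin 5) : (((z0 ^ (i : ℕ) * g10)⁻¹ : A6) : Perm (Fin 6)) 5 ≠ 5 := by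
  revert i; decide +kernel
theorem iota5 : ∀ a : ↥(alternatingGroup (Fin 5)), ((iota a : A6) : Perm (Fin 6)) 5 = 5 := by
  intro a
  rw [Cfsg.Agent.H401.E6Three.iota_coe, Cfsg.Agent.H401.E6Three.ext5_apply]
  exact dif_neg (by decide)

theorem iota_one {a : ↥(alternatingGroup (Fin 5))} (h : iota a = 1) : a = 1 := by
  apply Subtype.ext
  ext i
  have h1 : Cfsg.Agent.H401.E6Three.ext5 (a : Perm (Fin 5)) = 1 := by
    rw [← Cfsg.Agent.H401.E6Three.iota_coe, h]; rfl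
  have h2 := congrArg (fun s : Perm (Fin 6) => s (Fin.castSucc i)) h1
  simp only [Cfsg.Agent.H401.E6Three.ext5_apply] at h2
  rw [dif_pos (by exact i.2)] at h2
  have h3 := Fin.castSucc_injective _ h2
  exact congrArg Fin.val h3

theorem gen1 : Subgroup.closure {z0, g10} = (⊤ : Subgroup A6) :=
  gen_of (n := 4) _ _ (by decide +kernel) (by decide +kernel)
    ![[], [], [1, 1, 2, 0, 2, 1, 2, 1], [0, 2, 1, 1, 2, 0, 2, 0], [0, 0, 2, 0, 2, 1, 2], [0, 2, 0, 2, 1, 2, 0, 0, 2]]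
    (by decide +kernel)

theorem gen2 : Subgroup.closure {z0, g20} = (⊤ : Subgroup A6) :=
  gen_of (n := 4) _ _ (by decide +kernel) (by decide +kernel)
    ![[], [], [0, 0, 2, 1, 2, 0, 2], [2, 0, 0, 2, 1, 2, 0], [0, 2, 1, 2, 0, 2, 0], [2, 0, 2, 1, 1, 2, 1, 2, 1]]
    (by decide +kernel)

theorem gen3 : Subgroup.closure {e0, e0⁻¹ * z0} = (⊤ : Subgroup A6) :=
  gen_of (n := 4) _ _ (by decide +kernel) (by decide +kernel)
    ![[], [], [1, 2, 1, 3, 0], [0, 3, 0, 2, 1], [3, 0, 2, 1, 3, 1, 2], [2, 1, 3, 0, 2, 0, 3]]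
    (by decide +kernel)

theorem gen4 : Subgroup.closure {z0, xx z0 g10 * xx z0 g20} = (⊤ : Subgroup A6) :=
  gen_of (n := 4) _ _ (by decide +kernel) (by decide +kernel)
    ![[], [], [0, 0, 2, 0, 3, 3], [2, 0, 0, 2, 2, 0], [0, 2, 0, 3, 1, 2], [2, 0, 3, 1, 2, 0, 2]]
    (by decide +kernel)

theorem gen5 : Subgroup.closure {z0, xx z0 g10, xx z0 g20} = (⊤ : Subgroup A6) := by
  rw [eq_top_iff, ← gen4, Subgroup.closure_le]
  rintro x (rfl | rfl)
  · exact Subgroup.subset_closure (by simp)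
  · exact Subgroup.mul_mem _ (Subgroup.subset_closure (by simp)) (Subgroup.subset_closure (by simp))

/-! ### the extension -/

/-- the three-fold cover -/
structure Ex {P : Type*} [Group P] (π : P →* A6) (ζ : P) : Prop where
  surj : Function.Surjective π
  cen : ∀ z, π z = 1 → ∀ b, b * z = z * b
  ker : ∀ z, π z = 1 → z = 1 ∨ z = ζ ∨ z = ζ⁻¹
  pz : π ζ = 1
  ne : ζ ≠ 1
  cube : ζ ^ 3 = 1
  perf : commutator P = ⊤
  nc : ∀ x y : P, π x = a0 → π y = b0 → x * y * x⁻¹ * y⁻¹ = ζ ∨ x * y * x⁻¹ * y⁻¹ = ζ⁻¹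

section ext

variable {P : Type*} [Group P] {π : P →* A6} {ζ : P}

theorem Ex.cube' (h : Ex π ζ) {w : P} (hw : π w = 1) : w ^ 3 = 1 := by
  rcases h.ker w hw with rfl | rfl | rfl
  · exact one_pow 3
  · exact h.cube
  · rw [inv_pow, h.cube, inv_one]

theorem Ex.exists_sq (h : Ex π ζ) {a : A6} (ha : a * a = 1) : ∃ b, π b = a ∧ b * b = 1 := by
  obtain ⟨b, rfl⟩ := h.surj a
  have hz : π (b * b) = 1 := by rw [map_mul, ha]
  have h3 := h.cube' hz
  refine ⟨b * (b * b), by rw [map_mul, map_mul, ha, mul_one], ?_⟩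
  have h4 : b * (b * b) * (b * (b * b)) = (b * b) ^ 3 := by
    rw [pow_succ, pow_succ, pow_one]
    simp only [mul_assoc]
  rw [h4, h3]

theorem Ex.sq_unique (h : Ex π ζ) {b b' : P} (hb : π b = π b') (h1 : b * b = 1) (h2 : b' * b' = 1) : b = b' := by
  obtain ⟨z, rfl⟩ : ∃ z, b' = b * z := ⟨b⁻¹ * b', by group⟩
  have hz : π z = 1 := by
    rw [map_mul] at hb
    exact (mul_eq_left.1 hb.symm)
  have h3 := h.cen z hz b
  have h4 : z * z = 1 := by
    have h5 : b * z * (b * z) = b * b * (z * z) := by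
      calc b * z * (b * z) = b * (z * b) * z := by simp only [mul_assoc]
        _ = b * (b * z) * z := by rw [h3]
        _ = b * b * (z * z) := by simp only [mul_assoc]
    rw [h5, h1, one_mul] at h2
    exact h2
  have h5 := h.cube' hz
  rw [pow_succ, pow_two, h4, one_mul] at h5
  rw [h5, mul_one]

theorem Ex.five_unique (h : Ex π ζ) {b b' : P} (hb : π b = π b') (h1 : b ^ 5 = 1) (h2 : b' ^ 5 = 1) : b = b' := by
  obtain ⟨z, rfl⟩ : ∃ z, b' = b * z := ⟨b⁻¹ * b', by group⟩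
  have hz : π z = 1 := by
    rw [map_mul] at hb
    exact (mul_eq_left.1 hb.symm)
  have h3 : Commute b z := h.cen z hz b
  rw [h3.mul_pow, h1, one_mul] at h2
  have h5 := h.cube' hz
  have h6 : z = 1 := by
    have e : z = z ^ 3 * z ^ 3 * (z ^ 5)⁻¹ := by group
    rw [e, h5, h2]; simp
  rw [h6, mul_one]

theorem Ex.cube_real (h : Ex π ζ) {x : P} (hx3 : π x ^ 3 = 1) (hc : ∃ c, c * π x * c⁻¹ = (π x)⁻¹) : x ^ 3 = 1 := by
  obtain ⟨c, hc⟩ := hc
  obtain ⟨g, rfl⟩ := h.surj c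
  have hz : π (x * (g * x * g⁻¹)) = 1 := by rw [map_mul, map_mul, map_mul, map_inv, hc, mul_inv_cancel]
  set z := x * (g * x * g⁻¹) with hzd
  have h1 : g * x * g⁻¹ = x⁻¹ * z := by rw [hzd, inv_mul_cancel_left]
  have hw : π (x ^ 3) = 1 := by rw [map_pow, hx3]
  have h2 : (g * x * g⁻¹) ^ 3 = x ^ 3 := by
    rw [conj_pow, h.cen _ hw, mul_inv_cancel_right]
  have h3 : (x⁻¹ * z) ^ 3 = (x ^ 3)⁻¹ := by
    have h4 : Commute x⁻¹ z := h.cen _ hz _
    rw [h4.mul_pow, h.cube' hz, mul_one, inv_pow]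
  have h5 : (x ^ 3) ^ 2 = 1 := by
    rw [pow_two]
    nth_rw 1 [← h2]
    rw [h1, h3, inv_mul_cancel]
  have h6 : (x ^ 3) ^ 3 = 1 := h.cube' hw
  have h7 : (x ^ 3) ^ 3 = (x ^ 3) ^ 2 * x ^ 3 := pow_succ _ _
  rw [h6, h5, one_mul] at h7
  exact h7.symm

theorem Ex.cz (h : Ex π ζ) (g : P) : g * ζ = ζ * g := h.cen ζ h.pz g

/-- closing the sign -/
theorem Ex.tw_aux (h : Ex π ζ) {q p : P} (hq : q * p * q⁻¹ = ζ * p ∨ q * p * q⁻¹ = ζ⁻¹ * p) :
    ∃ b, b * p * b⁻¹ = ζ * p := by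
  rcases hq with hq | hq
  · exact ⟨q, hq⟩
  · refine ⟨q⁻¹, ?_⟩
    have h1 : q * p = ζ⁻¹ * p * q := by rw [← hq]; group
    have h2 : q⁻¹ * p * q⁻¹⁻¹ = q⁻¹ * (ζ * (ζ⁻¹ * p * q)) := by group
    rw [h2, ← h1, ← mul_assoc, h.cz, ]
    group

theorem Ex.tw_a (h : Ex π ζ) {x : P} (hx : π x = a0) : ∃ b, b * x * b⁻¹ = ζ * x := by
  obtain ⟨y, hy⟩ := h.surj b0
  refine h.tw_aux (q := y) ?_
  rcases h.nc x y hx hy with h1 | h1
  · right
    have h2 : y * x * y⁻¹ = (x * y * x⁻¹ * y⁻¹)⁻¹ * x * (y * y⁻¹) * (y * y⁻¹) := by group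
    rw [h2, h1]; group
  · left
    have h2 : y * x * y⁻¹ = (x * y * x⁻¹ * y⁻¹)⁻¹ * x * (y * y⁻¹) * (y * y⁻¹) := by group
    rw [h2, h1]; group

theorem Ex.tw_ab (h : Ex π ζ) {p : P} (hp : π p = a0 * b0) : ∃ b, b * p * b⁻¹ = ζ * p := by
  obtain ⟨x, hx⟩ := h.surj a0
  have hy : π (x⁻¹ * p) = b0 := by rw [map_mul, map_inv, hx, hp, inv_mul_cancel_left]
  refine h.tw_aux (q := x) ?_
  have key : ∀ w : P, π w = 1 → x * (x⁻¹ * p) * x⁻¹ * (x⁻¹ * p)⁻¹ = w → x * p * x⁻¹ = w * p := by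
    intro w hw h1
    have h2 : x * p * x⁻¹ = x * ((x * (x⁻¹ * p) * x⁻¹ * (x⁻¹ * p)⁻¹) * (x⁻¹ * p)) := by group
    rw [h2, h1, ← mul_assoc x w, h.cen w hw x]
    group
  rcases h.nc x (x⁻¹ * p) hx hy with h1 | h1
  · left; exact key _ h.pz h1
  · right; exact key _ (by rw [map_inv, h.pz, inv_one]) h1

theorem Ex.tw_conj (h : Ex π ζ) {a : A6} (H : ∀ x : P, π x = a → ∃ b, b * x * b⁻¹ = ζ * x) {p : P}
    (hp : ∃ c : A6, c * a * c⁻¹ = π p) : ∃ b, b * p * b⁻¹ = ζ * p := by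
  obtain ⟨c, hc⟩ := hp
  obtain ⟨q, rfl⟩ := h.surj c
  obtain ⟨b, hb⟩ := H (q⁻¹ * p * q) (by rw [map_mul, map_mul, map_inv, ← hc]; group)
  refine ⟨q * b * q⁻¹, ?_⟩
  have h1 : q * b * q⁻¹ * p * (q * b * q⁻¹)⁻¹ = q * (b * (q⁻¹ * p * q) * b⁻¹) * q⁻¹ := by group
  rw [h1, hb, ← mul_assoc, h.cz]
  group

open scoped commutatorElement in
theorem Ex.gen_up (h : Ex π ζ) {S : Set P} (hS : Subgroup.closure (π '' S) = ⊤) : Subgroup.closure S = ⊤ := by
  have h1 : (Subgroup.closure S).map π = ⊤ := by rw [MonoidHom.map_closure, hS]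
  have h2 : ∀ p : P, ∃ q ∈ Subgroup.closure S, ∃ w, π w = 1 ∧ p = q * w := by
    intro p
    have h3 : π p ∈ (Subgroup.closure S).map π := by rw [h1]; trivial
    obtain ⟨q, hq, hqp⟩ := h3
    exact ⟨q, hq, q⁻¹ * p, by rw [map_mul, map_inv, hqp, inv_mul_cancel], by group⟩
  rw [eq_top_iff, ← h.perf, commutator_def, Subgroup.commutator_le]
  intro g _ g' _
  obtain ⟨b, hb, c, hc, rfl⟩ := h2 g
  obtain ⟨b', hb', c', hc', rfl⟩ := h2 g'
  have q1 := h.cen c hc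
  have q2 := h.cen c' hc'
  have h3 : ⁅b * c, b' * c'⁆ = ⁅b, b'⁆ := by
    rw [commutatorElement_def, commutatorElement_def, mul_inv_rev, mul_inv_rev]
    calc b * c * (b' * c') * (c⁻¹ * b⁻¹) * (c'⁻¹ * b'⁻¹)
        = b * (c * (b' * c' * (c⁻¹ * b⁻¹))) * (c'⁻¹ * b'⁻¹) := by group
      _ = b * (b' * c' * (c⁻¹ * b⁻¹) * c) * (c'⁻¹ * b'⁻¹) := by rw [q1]
      _ = b * b' * (c' * (c⁻¹ * b⁻¹ * c * c'⁻¹)) * b'⁻¹ := by group
      _ = b * b' * (c⁻¹ * b⁻¹ * c * c'⁻¹ * c') * b'⁻¹ := by rw [q2]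
      _ = b * b' * (c⁻¹ * (b⁻¹ * c)) * b'⁻¹ := by group
      _ = b * b' * (c⁻¹ * (c * b⁻¹)) * b'⁻¹ := by rw [q1]
      _ = b * b' * b⁻¹ * b'⁻¹ := by group
  rw [h3, commutatorElement_def]
  exact Subgroup.mul_mem _ (Subgroup.mul_mem _ (Subgroup.mul_mem _ hb hb') (Subgroup.inv_mem _ hb)) (Subgroup.inv_mem _ hb')

end ext

/-! ### the monomial action on the six points -/

/-- state: a point and an exponent modulo 3 -/
abbrev Sta := Fin 6 × Fin 3

/-- `0 = z`, `1 = z⁻¹`, `2 = g` -/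
def stp : Fin 3 → Sta → Sta
  | 0, (i, k) => ((![1, 2, 3, 4, 0, 5] : Fin 6 → Fin 6) i, k)
  | 1, (i, k) => ((![4, 0, 1, 2, 3, 5] : Fin 6 → Fin 6) i, k)
  | 2, (i, k) => ((![5, 2, 1, 3, 4, 0] : Fin 6 → Fin 6) i, k + (![0, 1, 2, 0, 0, 0] : Fin 6 → Fin 3) i)

def run (l : List (Fin 3)) (s : Sta) : Sta := l.foldr stp s

section act

variable {P : Type*} [Group P] {Ω : Type*} [MulAction P Ω]

def wd (z g : P) (l : List (Fin 3)) : P := (l.map (fun i => (![z, z⁻¹, g] : Fin 3 → P) i)).prod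

/-- the action of words -/
theorem wd_act {z g β : P} (e : Fin 6 → Ω) (hβ : ∀ p : P, p * β = β * p) (hβ3 : β ^ 3 = 1)
    (hz : ∀ i, z • e i = e ((![1, 2, 3, 4, 0, 5] : Fin 6 → Fin 6) i))
    (hg : ∀ i, g • e i = β ^ (((![0, 1, 2, 0, 0, 0] : Fin 6 → Fin 3) i : Fin 3) : ℕ) • e ((![5, 2, 1, 3, 4, 0] : Fin 6 → Fin 6) i))
    (l : List (Fin 3)) (s : Sta) :
    wd z g l • (β ^ (s.2 : ℕ) • e s.1) = β ^ ((run l s).2 : ℕ) • e (run l s).1 := by
  have hc : ∀ (p : P) (k : ℕ) (x : Ω), p • (β ^ k • x) = β ^ k • (p • x) := by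
    intro p k x
    rw [smul_smul, smul_smul]
    congr 1
    exact ((show Commute p β from hβ p).pow_right k).eq
  have hmod : ∀ k l : Fin 3, β ^ (k : ℕ) * β ^ (l : ℕ) = β ^ ((k + l : Fin 3) : ℕ) := by
    intro k l
    rw [← pow_add, Fin.val_add]
    conv_lhs => rw [← Nat.div_add_mod ((k : ℕ) + l) 3, pow_add, pow_mul, hβ3, one_pow, one_mul]
  have hzi : ∀ i, z⁻¹ • e i = e ((![4, 0, 1, 2, 3, 5] : Fin 6 → Fin 6) i) := by
    intro i
    rw [inv_smul_eq_iff, hz]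
    congr 1
    revert i; decide
  induction l with
  | nil =>
    show (1 : P) • _ = _
    rw [one_smul]; rfl
  | cons a l ih =>
    have h1 : wd z g (a :: l) = (![z, z⁻¹, g] : Fin 3 → P) a * wd z g l := by
      simp [wd]
    rw [h1, mul_smul, ih, hc]
    have h2 : run (a :: l) s = stp a (run l s) := rfl
    rw [h2]
    generalize run l s = r
    rcases r with ⟨i, k⟩
    fin_cases a
    · show β ^ (k : ℕ) • (z • e i) = _
      rw [hz]; rfl
    · show β ^ (k : ℕ) • (z⁻¹ • e i) = _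
      rw [hzi]; rfl
    · show β ^ (k : ℕ) • (g • e i) = _
      rw [hg, smul_smul, hmod]; rfl

theorem wd_append (z g : P) (l l' : List (Fin 3)) : wd z g (l ++ l') = wd z g l * wd z g l' := by
  simp [wd]

end act

/-! ### the theorem -/

section main

variable {P : Type*} [Group P] {π : P →* A6} {ζ : P}

theorem xx_sq {z g : P} (hg : g * g = 1) : xx z g * xx z g = 1 := by
  have h1 : xx z g * xx z g = g * z * z * g * z⁻¹ * z⁻¹ * (g * g) * z * z * g * z⁻¹ * z⁻¹ * g := by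
    unfold xx; group
  rw [h1, hg]
  have h2 : g * z * z * g * z⁻¹ * z⁻¹ * 1 * z * z * g * z⁻¹ * z⁻¹ * g = g * z * z * (g * g) * z⁻¹ * z⁻¹ * g := by group
  rw [h2, hg]
  have h3 : g * z * z * 1 * z⁻¹ * z⁻¹ * g = g * g := by group
  rw [h3, hg]

theorem xx_map (z g : P) : π (xx z g) = xx (π z) (π g) := by
  unfold xx
  simp only [map_mul, map_inv]

theorem conj_sq {b x : P} (hx : x * x = 1) : b * x * b⁻¹ * (b * x * b⁻¹) = 1 := by
  have h1 : b * x * b⁻¹ * (b * x * b⁻¹) = b * (x * x) * b⁻¹ := by group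
  rw [h1, hx]; group

theorem inv_eq_self {g : P} (hg : g * g = 1) : g⁻¹ = g := inv_eq_of_mul_eq_one_left hg

theorem mk_half (h : Ex π ζ) {z g β : P} {γ : A6} (hz : π z = z0) (hg : π g = γ) (z5 : z ^ 5 = 1) (gg : g * g = 1)
    (r2 : g * z⁻¹ * z⁻¹ * g * z * g = z * xx z g * z⁻¹ * xx z g * z⁻¹ * β)
    (f4 : γ * z0 * γ * z0⁻¹ * γ = xx z0 γ * z0 * xx z0 γ * z0⁻¹ * xx z0 γ)
    (fc : (xx z0 γ * z0) ^ 3 = 1) (fi : ∃ c : A6, c * (xx z0 γ * z0) * c⁻¹ = (xx z0 γ * z0)⁻¹)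
    (fg : Subgroup.closure {z0, γ} = (⊤ : Subgroup A6))
    (tw : ∃ b, b * (xx z g * z) * b⁻¹ = ζ * (xx z g * z)) : Half ζ z g β where
  z5 := z5
  gg := gg
  r2 := r2
  r4 := by
    have hx := xx_sq (z := z) gg
    have gi := inv_eq_self gg
    have xi := inv_eq_self hx
    refine h.sq_unique ?_ ?_ ?_
    · simp only [map_mul, map_inv, xx_map, hz, hg]; exact f4
    · have h1 := conj_sq (b := g * z) gg
      have h2 : g * z * g * z⁻¹ * g = g * z * g * (g * z)⁻¹ := by rw [mul_inv_rev, gi]; group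
      rw [h2]; exact h1
    · have h1 := conj_sq (b := xx z g * z) hx
      have h2 : xx z g * z * xx z g * z⁻¹ * xx z g = xx z g * z * xx z g * (xx z g * z)⁻¹ := by
        rw [mul_inv_rev, xi]; group
      rw [h2]; exact h1
  gen := by
    apply h.gen_up
    rw [Set.image_pair, hz, hg]
    exact fg
  c3 := by
    refine h.cube_real ?_ ?_
    · rw [map_mul, xx_map, hz, hg]; exact fc
    · rw [map_mul, xx_map, hz, hg]; exact fi
  t3 := tw

/-- word for `g₂` -/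
def lg : List (Fin 3) := [2, 0, 2, 1, 2, 1, 2, 0, 2, 0, 2, 1, 2]
/-- word for `xx z g₂` -/
def lx : List (Fin 3) := lg ++ ([0, 0] ++ (lg ++ ([1, 1] ++ lg)))
/-- left side of `r2` -/
def ll : List (Fin 3) := lg ++ ([1, 1] ++ (lg ++ ([0] ++ lg)))
/-- right side of `r2` -/
def lr : List (Fin 3) := [0] ++ (lx ++ ([1] ++ (lx ++ [1])))

theorem run_ll : run ll (5, 0) = (2, 1) := by decide +kernel
theorem run_lr : run lr (5, 0) = (2, 2) := by decide +kernel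

theorem main (h : Ex π ζ) (κ : ↥(alternatingGroup (Fin 5)) →* P) (hκ : ∀ a, π (κ a) = iota a) :
    ∃ z g₁ g₂ β t a : P, Full ζ z g₁ g₂ β t a ∧ π z = z0 ∧ π g₁ = g10 ∧ π g₂ = g20 := by
  obtain ⟨z, hzd⟩ : ∃ z, z = κ k5 := ⟨_, rfl⟩
  have z5 : z ^ 5 = 1 := by rw [hzd, ← map_pow, f_k5', map_one]
  have hz : π z = z0 := by rw [hzd, hκ, f_k5]
  obtain ⟨g, hg, gg⟩ := h.exists_sq f_g1
  have gi := inv_eq_self gg
  obtain ⟨t, ht, tt⟩ := h.exists_sq f_t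
  have hX : xx z g = κ x5 := by
    refine h.sq_unique ?_ (xx_sq gg) ?_
    · rw [xx_map, hz, hg, hκ, f_x5]
    · rw [← map_mul, f_x5', map_one]
  -- the space of cosets
  let K := κ.range
  let e5 : P ⧸ K := ((1 : P) : P ⧸ K)
  have st : ∀ p : P, p • e5 = e5 ↔ p ∈ K := by
    intro p
    have h1 : p • e5 = ((p * 1 : P) : P ⧸ K) := rfl
    rw [h1, mul_one]
    constructor
    · intro h2
      have h3 := QuotientGroup.eq.1 h2.symm
      rwa [inv_one, one_mul] at h3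
    · intro h2
      exact (QuotientGroup.eq.2 (by rwa [inv_one, one_mul])).symm
  have stz : z • e5 = e5 := (st z).2 ⟨k5, hzd.symm⟩
  have stx : xx z g • e5 = e5 := (st _).2 ⟨x5, hX.symm⟩
  have stzi : z⁻¹ • e5 = e5 := by rw [inv_smul_eq_iff, stz]
  have kpi : ∀ p : P, p • e5 = e5 → (π p : Perm (Fin 6)) 5 = 5 := by
    intro p hp
    obtain ⟨a, rfl⟩ := (st p).1 hp
    rw [hκ]; exact iota5 a
  have kone : ∀ p : P, p • e5 = e5 → π p = 1 → p = 1 := by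
    intro p hp h1
    obtain ⟨a, rfl⟩ := (st p).1 hp
    rw [hκ] at h1
    rw [iota_one h1, map_one]
  clear_value e5
  obtain ⟨β, hβd⟩ : ∃ β, β = (z * xx z g * z⁻¹ * xx z g * z⁻¹)⁻¹ * (g * z⁻¹ * z⁻¹ * g * z * g) := ⟨_, rfl⟩
  have r2 : g * z⁻¹ * z⁻¹ * g * z * g = z * xx z g * z⁻¹ * xx z g * z⁻¹ * β := by
    rw [hβd, mul_inv_cancel_left]
  have hβ1 : π β = 1 := by
    rw [hβd]
    simp only [map_mul, map_inv, xx_map, hz, hg]
    rw [f_r2, inv_mul_cancel]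
  have hβc := h.cen β hβ1
  have hβ3 := h.cube' hβ1
  let e : Fin 6 → P ⧸ K := ![g • e5, (z * g) • e5, (z ^ 2 * g) • e5, (z ^ 3 * g) • e5, (z ^ 4 * g) • e5, e5]
  have ez : ∀ i, z • e i = e ((![1, 2, 3, 4, 0, 5] : Fin 6 → Fin 6) i) := by
    intro i
    fin_cases i
    · show z • (g • e5) = (z * g) • e5
      rw [smul_smul]
    · show z • ((z * g) • e5) = (z ^ 2 * g) • e5
      rw [smul_smul, ← mul_assoc, pow_two]
    · show z • ((z ^ 2 * g) • e5) = (z ^ 3 * g) • e5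
      rw [smul_smul, ← mul_assoc, ← pow_succ']
    · show z • ((z ^ 3 * g) • e5) = (z ^ 4 * g) • e5
      rw [smul_smul, ← mul_assoc, ← pow_succ']
    · show z • ((z ^ 4 * g) • e5) = g • e5
      rw [smul_smul, ← mul_assoc, ← pow_succ', z5, one_mul]
    · exact stz
  have zi4 : z⁻¹ = z ^ 4 := by rw [inv_eq_iff_mul_eq_one, ← pow_succ', z5]
  have zi3 : z⁻¹ * z⁻¹ = z ^ 3 := by
    rw [zi4, ← pow_add]
    have : z ^ (4 + 4) = z ^ 5 * z ^ 3 := by rw [← pow_add]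
    rw [this, z5, one_mul]
  have q1 : g • e 1 = β • e 2 := by
    show g • ((z * g) • e5) = β • ((z ^ 2 * g) • e5)
    have h1 : g * (z * g) = z ^ 2 * g * (g * z⁻¹ * z⁻¹ * g * z * g) := by
      have h2 : z ^ 2 * g * (g * z⁻¹ * z⁻¹ * g * z * g) = z ^ 2 * (g * g) * z⁻¹ * z⁻¹ * g * z * g := by group
      rw [h2, gg]; group
    rw [smul_smul, smul_smul, h1, r2]
    have h3 : z ^ 2 * g * (z * xx z g * z⁻¹ * xx z g * z⁻¹ * β) = β * (z ^ 2 * g) * z * xx z g * z⁻¹ * xx z g * z⁻¹ := by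
      rw [← hβc (z ^ 2 * g)]
      have h4 := hβc (z * xx z g * z⁻¹ * xx z g * z⁻¹)
      rw [h4]; group
    rw [h3]
    simp only [mul_smul, stzi, stx, stz]
  have eg : ∀ i, g • e i = β ^ (((![0, 1, 2, 0, 0, 0] : Fin 6 → Fin 3) i : Fin 3) : ℕ) •
      e ((![5, 2, 1, 3, 4, 0] : Fin 6 → Fin 6) i) := by
    intro i
    fin_cases i
    · show g • (g • e5) = β ^ 0 • e5
      rw [smul_smul, gg, pow_zero]
    · show g • e 1 = β ^ 1 • e 2
      rw [pow_one, q1]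
    · show g • e 2 = β ^ 2 • e 1
      have h1 : e 1 = g • (β • e 2) := by rw [← q1, smul_smul, gg, one_smul]
      rw [h1, smul_smul, smul_smul]
      congr 1
      rw [← ((show Commute g β from hβc g).pow_right 2).eq, mul_assoc, ← pow_succ, hβ3, mul_one]
    · show g • ((z ^ 3 * g) • e5) = β ^ 0 • ((z ^ 3 * g) • e5)
      have h1 : g * (z ^ 3 * g) = z ^ 3 * g * xx z g := by
        have h2 : z ^ 3 * g * xx z g = z ^ 3 * (g * g) * z * z * g * (z⁻¹ * z⁻¹) * g := by unfold xx; group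
        rw [h2, gg, zi3]
        have h3 : z ^ 3 * 1 * z * z * g * z ^ 3 * g = z ^ 5 * g * z ^ 3 * g := by group
        rw [h3, z5]; group
      rw [smul_smul, h1, mul_smul, stx, pow_zero, one_smul]
    · show g • ((z ^ 4 * g) • e5) = β ^ 0 • ((z ^ 4 * g) • e5)
      have hr4 : g * z * g * z⁻¹ * g = xx z g * z * xx z g * z⁻¹ * xx z g :=
        (mk_half h hz hg z5 gg r2 f_r4 f_c f_i1 gen1 (h.tw_conj (fun x hx => h.tw_a hx) (by
          obtain ⟨c, hc⟩ := f_j1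
          exact ⟨c, by rw [map_mul, xx_map, hz, hg]; exact hc⟩))).r4
      have h1 : g * (z ^ 4 * g) = z ^ 4 * g * (g * z * g * z⁻¹ * g) := by
        have h2 : z ^ 4 * g * (g * z * g * z⁻¹ * g) = z ^ 4 * (g * g) * z * g * z⁻¹ * g := by group
        rw [h2, gg]
        have h3 : z ^ 4 * 1 * z * g * z⁻¹ * g = z ^ 5 * g * z⁻¹ * g := by group
        rw [h3, z5, zi4]; group
      rw [smul_smul, h1, hr4]
      have h5 : z ^ 4 * g * (xx z g * z * xx z g * z⁻¹ * xx z g) = z ^ 4 * g * xx z g * z * xx z g * z⁻¹ * xx z g := by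
        group
      rw [h5]
      simp only [mul_smul, stx, stz, stzi, pow_zero, one_smul]
    · show g • e5 = β ^ 0 • (g • e5)
      rw [pow_zero, one_smul]
  have hH1 : Half ζ z g β := mk_half h hz hg z5 gg r2 f_r4 f_c f_i1 gen1 (h.tw_conj (fun x hx => h.tw_a hx) (by
    obtain ⟨c, hc⟩ := f_j1
    exact ⟨c, by rw [map_mul, xx_map, hz, hg]; exact hc⟩))
  -- `β ≠ 1`
  have hβne : β ≠ 1 := by
    intro hb
    have key : ∀ p : P, (∀ i, ∃ j, p • e i = e j) ∧ (∀ i, ∃ j, p⁻¹ • e i = e j) := by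
      intro p
      have hp : p ∈ Subgroup.closure {z, g} := by rw [hH1.gen]; trivial
      induction hp using Subgroup.closure_induction with
      | mem x hx =>
        rcases hx with hx | hx
        · rw [show x = z from hx]
          refine ⟨fun i => ⟨_, ez i⟩, fun i => ⟨(![4, 0, 1, 2, 3, 5] : Fin 6 → Fin 6) i, ?_⟩⟩
          rw [inv_smul_eq_iff, ez]
          congr 1
          revert i; decide
        · rw [show x = g from hx]
          have h1 : ∀ i, ∃ j, g • e i = e j := fun i => ⟨_, by rw [eg, hb, one_pow, one_smul]⟩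
          refine ⟨h1, ?_⟩
          rw [gi]; exact h1
      | one => exact ⟨fun i => ⟨i, one_smul _ _⟩, fun i => ⟨i, by rw [inv_one, one_smul]⟩⟩
      | mul x y _ _ hx hy =>
        refine ⟨fun i => ?_, fun i => ?_⟩
        · obtain ⟨j, hj⟩ := hy.1 i
          obtain ⟨k, hk⟩ := hx.1 j
          exact ⟨k, by rw [mul_smul, hj, hk]⟩
        · obtain ⟨j, hj⟩ := hx.2 i
          obtain ⟨k, hk⟩ := hy.2 j
          exact ⟨k, by rw [mul_inv_rev, mul_smul, hj, hk]⟩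
      | inv x _ hx => exact ⟨hx.2, by rw [inv_inv]; exact hx.1⟩
    obtain ⟨j, hj⟩ := (key ζ).1 5
    have hj' : ζ • e5 = e j := hj
    have bad : ∀ i : Fin 5, ζ • e5 ≠ (z ^ (i : ℕ) * g) • e5 := by
      intro i hi
      have h1 : ((z ^ (i : ℕ) * g)⁻¹ * ζ) • e5 = e5 := by rw [mul_smul, hi, inv_smul_smul]
      have h2 := kpi _ h1
      rw [map_mul, h.pz, mul_one, map_inv, map_mul, map_pow, hz, hg] at h2
      exact f_k i h2
    fin_cases j
    · exact bad 0 (by rw [hj']; show g • e5 = _; rw [Fin.val_zero, pow_zero, one_mul])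
    · exact bad 1 (by rw [hj']; show (z * g) • e5 = (z ^ 1 * g) • e5; rw [pow_one])
    · exact bad 2 (by rw [hj']; rfl)
    · exact bad 3 (by rw [hj']; rfl)
    · exact bad 4 (by rw [hj']; rfl)
    · exact h.ne (kone ζ hj' h.pz)
  have hβ : β = ζ ∨ β = ζ⁻¹ := (h.ker β hβ1).resolve_left hβne
  -- the second class
  obtain ⟨v, hvd⟩ : ∃ v, v = g * z * g * z⁻¹ * g * z⁻¹ := ⟨_, rfl⟩
  obtain ⟨g₂, hg2d⟩ : ∃ g₂, g₂ = v * g * v⁻¹ := ⟨_, rfl⟩
  have hv : π v = v0 := by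
    rw [hvd]
    simp only [map_mul, map_inv, hz, hg]
    rfl
  have hg2 : π g₂ = g20 := by rw [hg2d, map_mul, map_mul, map_inv, hv, hg, f_v]
  have gg2 : g₂ * g₂ = 1 := by rw [hg2d]; exact conj_sq gg
  have w1 : g₂ = wd z g lg := by
    rw [hg2d, hvd]
    simp only [mul_inv_rev, inv_inv, gi]
    simp [wd, lg, mul_assoc]
  have w2 : g₂ * z⁻¹ * z⁻¹ * g₂ * z * g₂ = wd z g ll := by
    rw [ll, wd_append, wd_append, wd_append, wd_append, ← w1]
    simp [wd, mul_assoc]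
  have w3 : xx z g₂ = wd z g lx := by
    rw [lx, wd_append, wd_append, wd_append, wd_append, ← w1]
    simp [wd, xx, mul_assoc]
  have w4 : z * xx z g₂ * z⁻¹ * xx z g₂ * z⁻¹ = wd z g lr := by
    rw [lr, wd_append, wd_append, wd_append, wd_append, ← w3]
    simp [wd, mul_assoc]
  obtain ⟨γ, hγd⟩ : ∃ γ, γ = (z * xx z g₂ * z⁻¹ * xx z g₂ * z⁻¹)⁻¹ * (g₂ * z⁻¹ * z⁻¹ * g₂ * z * g₂) := ⟨_, rfl⟩
  have r2' : g₂ * z⁻¹ * z⁻¹ * g₂ * z * g₂ = z * xx z g₂ * z⁻¹ * xx z g₂ * z⁻¹ * γ := by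
    rw [hγd, mul_inv_cancel_left]
  have hγ1 : π γ = 1 := by
    rw [hγd]
    simp only [map_mul, map_inv, xx_map, hz, hg2]
    rw [f_r2', inv_mul_cancel]
  have a1 := wd_act (Ω := P ⧸ K) e hβc hβ3 ez eg ll (5, 0)
  have a2 := wd_act (Ω := P ⧸ K) e hβc hβ3 ez eg lr (5, 0)
  rw [run_ll] at a1
  rw [run_lr] at a2
  rw [← w2, r2', h.cen γ hγ1, mul_smul, w4, a2] at a1
  have a3 : γ • (β ^ 2 • e 2) = β ^ 1 • e 2 := a1
  have a4 : (γ * β) • e5 = e5 := by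
    have h1 : (γ * β) • e 2 = e 2 := by
      have h2 : (β ^ 2) • (γ • (β ^ 2 • e 2)) = (β ^ 2) • (β ^ 1 • e 2) := by rw [a3]
      rw [smul_smul, smul_smul, smul_smul, ← pow_add, hβ3, one_smul] at h2
      have h3 : β ^ 2 * γ * β ^ 2 = γ * β := by
        rw [← ((show Commute γ β from hβc γ).pow_right 2).eq, mul_assoc, ← pow_add]
        have h4 : β ^ (2 + 2) = β ^ 3 * β := by rw [← pow_succ]
        rw [h4, hβ3, one_mul]
      rw [h3] at h2
      exact h2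
    have h2 : e 2 = (z ^ 2 * g) • e5 := rfl
    rw [h2, smul_smul] at h1
    have h3 : γ * β * (z ^ 2 * g) = z ^ 2 * g * (γ * β) := by
      rw [h.cen (γ * β) (by rw [map_mul, hγ1, hβ1, one_mul])]
    rw [h3, mul_smul] at h1
    exact smul_left_cancel _ h1
  have a5 : γ = β⁻¹ := by
    have h1 := kone _ a4 (by rw [map_mul, hγ1, hβ1, one_mul])
    exact eq_inv_of_mul_eq_one_left h1
  rw [a5] at r2'
  have hH2 : Half ζ z g₂ β⁻¹ := mk_half h hz hg2 z5 gg2 r2' f_r4' f_c' f_i2 gen2 (h.tw_conj (fun x hx => h.tw_ab hx) (by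
    obtain ⟨c, hc⟩ := f_j2
    exact ⟨c, by rw [map_mul, xx_map, hz, hg2]; exact hc⟩))
  obtain ⟨a, ha⟩ := h.surj e0
  have haz : π (a⁻¹ * z) = e0⁻¹ * z0 := by rw [map_mul, map_inv, ha, hz]
  refine ⟨z, g, g₂, β, t, a, ?_, hz, hg, hg2⟩
  exact
    { cen := h.cz
      cube := h.cube
      beta := hβ
      h1 := hH1
      h2 := hH2
      tt := tt
      tz := by
        refine h.five_unique ?_ ?_ ?_
        · rw [map_mul, map_mul, map_inv, map_inv, ht, hz, f_tz]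
        · rw [conj_pow, z5]; group
        · rw [inv_pow, z5, inv_one]
      gen12 := by
        apply h.gen_up
        rw [Set.image_insert_eq, Set.image_pair, xx_map, xx_map, hz, hg, hg2]
        exact gen5
      a3 := h.cube_real (by rw [ha, f_e]) (by rw [ha]; exact f_i3)
      a3' := h.cube_real (by rw [haz, f_e']) (by rw [haz]; exact f_i4)
      ta := h.tw_conj (fun x hx => h.tw_a hx) (by rw [ha]; exact f_j3)
      ta' := h.tw_conj (fun x hx => h.tw_ab hx) (by rw [haz]; exact f_j4)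
      gena := by
        apply h.gen_up
        rw [Set.image_pair, haz, ha]
        exact gen3 }

end main

end Cfsg.Agent.H288.E6.C6G
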