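import Mathlib
import Cfsg.Agent.H288.E6.C6G

/-!
# S5927, S5928: `sixc_two`, BOX G, concrete form `exists_full` (helper288)
-/

set_option autoImplicit false
set_option linter.unusedSectionVars false
set_option linter.unusedVariables false

namespace Cfsg.Agent.H288.E6.C6Full

open Cfsg Cfsg.Lie Module Equiv Equiv.Perm
open Cfsg.Agent.ChevalleyStructure.E6Min.Tables Cfsg.Agent.ChevalleyStructure.E6Min.Basic
  Cfsg.Agent.ChevalleyStructure.E6Min.Adjoint
open Cfsg.Agent.H958.SixC
open Cfsg.Agent.H163.E6 Cfsg.Agent.H163.E6.SixC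
open Cfsg.Agent.H401.E6Three (iota)

universe u

variable {F : Type u} [Field F] [Finite F] {φ : ↥(alternatingGroup (Fin 6)) →* ↥(chevE6.group F)}

theorem a0_type : (a0 : Perm (Fin 6)).cycleType = {3} := by
  have h1 : Perm.IsThreeCycle (swap (1 : Fin 6) 0 * swap 1 2) :=
    Perm.isThreeCycle_swap_mul_swap_same (by decide) (by decide) (by decide)
  have h2 : (a0 : Perm (Fin 6)) = swap (1 : Fin 6) 0 * swap 1 2 ∨ (a0 : Perm (Fin 6)) = (swap (1 : Fin 6) 0 * swap 1 2)⁻¹ := by
    decide +kernel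
  rcases h2 with h2 | h2
  · rw [h2]; exact h1
  · rw [h2, Perm.cycleType_inv]; exact h1

theorem b0_type : (b0 : Perm (Fin 6)).cycleType = {3} := by
  have h1 : Perm.IsThreeCycle (swap (4 : Fin 6) 3 * swap 4 5) :=
    Perm.isThreeCycle_swap_mul_swap_same (by decide) (by decide) (by decide)
  have h2 : (b0 : Perm (Fin 6)) = swap (4 : Fin 6) 3 * swap 4 5 ∨ (b0 : Perm (Fin 6)) = (swap (4 : Fin 6) 3 * swap 4 5)⁻¹ := by
    decide +kernel
  rcases h2 with h2 | h2
  · rw [h2]; exact h1
  · rw [h2, Perm.cycleType_inv]; exact h1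

theorem ab_disjoint : (a0 : Perm (Fin 6)).Disjoint b0 := by
  intro i
  revert i
  decide +kernel

theorem iota_injective : Function.Injective iota := by
  rw [injective_iff_map_eq_one]
  intro a ha
  exact Cfsg.Agent.H288.E6.C6G.iota_one ha

/-- the preimage is a three-fold cover -/
theorem ex_of_cover (hφ : Function.Injective φ) {ω : Fˣ} (hω : Cover φ ω) :
    ∃ ζ : ↥(φ.range.comap (ad F)), ((ζ : ↥(Zgrp F)) : GL I27 F) = scal ω ∧
      Cfsg.Agent.H288.E6.C6G.Ex (Cov.pr hφ) ζ := by
  obtain ⟨h1, h3, z, hz, hzm⟩ := id hω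
  have hz1 : ad F z = 1 := Cov.ad_scal h3 hz
  have hzP : z ∈ φ.range.comap (ad F) := by
    rw [Subgroup.mem_comap, hz1]; exact one_mem _
  refine ⟨⟨z, hzP⟩, hz, ?_⟩
  exact
    { surj := Cov.pr_surjective hφ
      cen := fun w hw b => Subtype.ext (Cov.ker_comm ((Cov.pr_eq_one hφ w).mp hw) b)
      ker := by
        intro w hw
        rcases Cov.ker_cases h1 h3 hz ((Cov.pr_eq_one hφ w).mp hw) with h | h | h
        · exact Or.inl (Subtype.ext h)
        · exact Or.inr (Or.inl (Subtype.ext h))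
        · exact Or.inr (Or.inr (Subtype.ext h))
      pz := (Cov.pr_eq_one hφ _).mpr hz1
      ne := by
        intro h
        have h4 : z = 1 := congrArg Subtype.val h
        rw [h4] at hz
        exact h1 (Cov.scal_injective (F := F) (by rw [Cov.scal_one, ← hz]; rfl))
      cube := Subtype.ext (Cov.ker_pow hz1)
      perf := by
        have h4 := Cov.perfect (F := F) (n := 6) (by norm_num) hφ hω
        have h5 : (commutator ↥(φ.range.comap (ad F))).map (φ.range.comap (ad F)).subtype =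
            (⊤ : Subgroup ↥(φ.range.comap (ad F))).map (φ.range.comap (ad F)).subtype := by
          rw [commutator_def, Subgroup.map_commutator, ← MonoidHom.range_eq_map, Subgroup.range_subtype, h4]
        exact Subgroup.map_injective (Subgroup.subtype_injective _) h5
      nc := by
        intro x y hx hy
        have hx' : ad F (x : ↥(Zgrp F)) = φ a0 := by rw [← Cov.phi_pr hφ, hx]
        have hy' : ad F (y : ↥(Zgrp F)) = φ b0 := by rw [← Cov.phi_pr hφ, hy]
        rcases Cov.not_comm (Or.inl rfl) hφ hω a0_type b0_type ab_disjoint hx' hy' with h | h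
        · left
          apply Subtype.ext
          apply Subtype.ext
          exact h.2.trans hz.symm
        · right
          apply Subtype.ext
          apply Subtype.ext
          refine h.2.trans ?_
          rw [Cov.scal_inv, ← hz]; rfl }

theorem _root_.Cfsg.Agent.H163.E6.SixC.exists_full [CharP F 2] (hφ : Function.Injective φ) {ω : Fˣ} (hω : Cover φ ω) :
    ∃ ζ z g₁ g₂ β t a : ↥(φ.range.comap (ad F)), Full ζ z g₁ g₂ β t a ∧ ((ζ : ↥(Zgrp F)) : GL I27 F) = scal ω ∧
      ad F z = φ z0 ∧ ad F g₁ = φ g10 ∧ ad F g₂ = φ g20 := by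
  obtain ⟨ζ, hζ, hE⟩ := ex_of_cover hφ hω
  -- the point stabilizer
  have hφ5 : Function.Injective (φ.comp iota) := hφ.comp iota_injective
  obtain ⟨ψ, hψ⟩ : ∃ ψ : ↥(alternatingGroup (Fin 5)) →* ↥(Zgrp F), Lift (φ.comp iota) ψ := by
    rcases Cov.exists_lift (n := 5) (by norm_num) hφ5 with h | h
    · exact h
    · rcases h.1 with h | h <;> norm_num at h
  let κ : ↥(alternatingGroup (Fin 5)) →* ↥(φ.range.comap (ad F)) := ψ.codRestrict _ (fun a => by
    rw [Subgroup.mem_comap, hψ a]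
    exact ⟨iota a, rfl⟩)
  have hκ : ∀ a, Cov.pr hφ (κ a) = iota a := by
    intro a
    apply hφ
    rw [Cov.phi_pr hφ]
    exact hψ a
  obtain ⟨z, g₁, g₂, β, t, a, hF, hz, hg1, hg2⟩ := Cfsg.Agent.H288.E6.C6G.main hE κ hκ
  refine ⟨ζ, z, g₁, g₂, β, t, a, hF, hζ, ?_, ?_, ?_⟩
  · rw [← Cov.phi_pr hφ, hz]
  · rw [← Cov.phi_pr hφ, hg1]
  · rw [← Cov.phi_pr hφ, hg2]

end Cfsg.Agent.H288.E6.C6Full
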