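import Mathlib
import Cfsg.Agent.H952.S7.Defs
import Cfsg.Agent.H952.S7.KF
import Cfsg.Agent.H952.S7.Defs2
import Cfsg.Agent.H905.E6T.Base

/-!
# S5927, S5928: 3.A₇, characteristic 2: the Gram matrix of two families (B2) and the totally singular case (B3) (helper288)
-/

set_option autoImplicit false

namespace Cfsg.Agent.H288.E6.S7B3

open Cfsg Cfsg.Lie Module
open Cfsg.Agent.ChevalleyStructure.E6Min.Tables
open Cfsg.Agent.H952.F4 (ev es sh cr tf)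
open Cfsg.Agent.H952.F4.Jord
open Cfsg.Agent.H163.E6 (TS)
open Cfsg.Agent.H905.E6T Cfsg.Agent.H952.S7

universe u

/-! ### tables -/

def Rt : List (List ℕ) :=
  [[0, 2, 3, 4, 5, 6, 9, 8, 8, 8, 8, 10, 9, 7, 8, 9, 7, 7, 8, 5, 6],
   [10, 2, 7, 7, 7, 7, 1, 10, 6, 4, 8, 5, 8, 6, 8, 8, 6, 6, 7, 7, 8],
   [9, 3, 3, 7, 8, 8, 9, 2, 9, 7, 5, 7, 6, 7, 7, 8, 9, 7, 7, 7, 8],
   [9, 4, 4, 4, 8, 9, 1, 8, 3, 7, 8, 7, 6, 7, 8, 7, 7, 8, 8, 7, 8],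
   [9, 5, 5, 5, 5, 9, 4, 2, 6, 4, 8, 5, 6, 7, 8, 9, 5, 7, 9, 7, 8],
   [9, 6, 6, 6, 6, 6, 9, 5, 3, 7, 5, 8, 6, 7, 8, 7, 6, 6, 8, 9, 8],
   [0, 9, 11, 7, 5, 8, 1, 4, 5, 6, 7, 7, 7, 5, 9, 7, 7, 5, 8, 7, 7],
   [1, 9, 8, 10, 8, 6, 8, 2, 5, 6, 7, 3, 7, 8, 6, 6, 8, 8, 6, 8, 8],
   [2, 2, 8, 8, 8, 8, 8, 5, 3, 6, 7, 7, 4, 8, 9, 7, 4, 9, 9, 7, 9],
   [3, 5, 3, 6, 8, 9, 8, 6, 6, 4, 7, 3, 7, 5, 9, 9, 7, 5, 10, 5, 8],
   [4, 10, 6, 4, 7, 8, 8, 7, 7, 7, 5, 6, 4, 8, 6, 6, 4, 7, 6, 8, 6],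
   [10, 8, 4, 8, 6, 7, 2, 6, 8, 6, 7, 3, 8, 6, 7, 8, 6, 9, 7, 7, 9],
   [9, 8, 5, 5, 9, 7, 8, 3, 6, 9, 7, 4, 4, 9, 7, 8, 7, 7, 10, 8, 8],
   [9, 8, 9, 6, 6, 9, 8, 9, 4, 7, 10, 9, 5, 5, 10, 8, 5, 8, 8, 8, 9],
   [10, 10, 9, 10, 7, 7, 11, 9, 10, 5, 8, 9, 10, 6, 6, 9, 10, 6, 9, 6, 9],
   [11, 8, 7, 5, 9, 7, 5, 7, 5, 8, 6, 8, 5, 9, 7, 6, 8, 8, 7, 8, 7],
   [0, 8, 7, 5, 6, 7, 3, 6, 6, 6, 6, 6, 5, 9, 7, 8, 4, 7, 9, 7, 7],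
   [1, 3, 6, 8, 6, 7, 2, 4, 7, 7, 7, 5, 7, 6, 10, 8, 8, 5, 8, 8, 8],
   [2, 4, 4, 7, 9, 7, 3, 3, 5, 8, 8, 4, 6, 8, 7, 9, 6, 9, 6, 9, 9],
   [3, 8, 4, 5, 6, 10, 4, 4, 4, 6, 9, 7, 5, 6, 9, 8, 7, 6, 10, 5, 9],
   [4, 6, 7, 5, 6, 7, 5, 5, 5, 5, 7, 6, 8, 6, 7, 8, 6, 8, 7, 6, 6]]

def Et : List (List ℕ) :=
  [[0, 0, 0, 0, 0, 0, 2, 2, 0, 0, 2, 2, 2, 2, 2, 2, 0, 0, 0, 0, 0],
   [2, 0, 1, 0, 0, 1, 0, 2, 0, 0, 2, 1, 2, 1, 2, 1, 0, 1, 1, 0, 2],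
   [2, 1, 0, 2, 0, 0, 2, 0, 2, 0, 0, 1, 1, 2, 1, 2, 2, 0, 1, 1, 0],
   [0, 0, 1, 0, 1, 0, 0, 2, 0, 2, 0, 2, 2, 1, 2, 1, 0, 2, 0, 1, 1],
   [0, 0, 0, 1, 0, 1, 0, 0, 2, 0, 2, 1, 2, 1, 1, 2, 1, 1, 2, 0, 1],
   [2, 1, 0, 0, 1, 0, 2, 0, 0, 2, 0, 2, 1, 2, 1, 1, 1, 1, 2, 2, 0],
   [0, 2, 1, 0, 0, 1, 0, 1, 0, 0, 1, 2, 2, 0, 2, 2, 0, 2, 2, 0, 1],
   [0, 1, 2, 1, 0, 0, 1, 0, 1, 0, 0, 2, 0, 2, 0, 2, 1, 0, 2, 2, 0],
   [0, 0, 1, 0, 1, 0, 0, 2, 0, 1, 0, 2, 2, 2, 2, 0, 0, 1, 0, 2, 2],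
   [0, 0, 0, 1, 0, 1, 0, 1, 1, 0, 1, 0, 2, 2, 1, 2, 2, 0, 1, 0, 2],
   [0, 1, 0, 0, 1, 2, 1, 0, 2, 0, 0, 2, 0, 2, 2, 2, 2, 2, 0, 1, 0],
   [1, 1, 1, 1, 2, 1, 0, 0, 1, 0, 1, 0, 0, 0, 0, 0, 1, 2, 1, 0, 0],
   [1, 1, 2, 1, 1, 2, 1, 0, 1, 1, 0, 0, 0, 0, 0, 0, 1, 1, 2, 1, 0],
   [1, 2, 1, 1, 1, 1, 0, 1, 0, 0, 1, 0, 0, 0, 0, 0, 2, 1, 1, 2, 1],
   [1, 1, 2, 1, 0, 1, 1, 0, 1, 0, 2, 0, 0, 0, 0, 2, 1, 2, 1, 0, 2],
   [1, 1, 1, 2, 1, 1, 0, 1, 0, 1, 0, 0, 0, 0, 0, 0, 2, 1, 2, 0, 0],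
   [0, 0, 1, 0, 2, 2, 0, 2, 0, 1, 1, 2, 2, 1, 2, 0, 0, 0, 1, 1, 0],
   [0, 2, 1, 1, 0, 2, 1, 0, 2, 0, 1, 1, 2, 2, 1, 2, 0, 0, 0, 1, 1],
   [0, 2, 2, 2, 1, 0, 1, 1, 0, 2, 0, 2, 1, 2, 2, 1, 1, 0, 0, 0, 1],
   [0, 0, 2, 2, 0, 1, 0, 1, 1, 0, 2, 1, 2, 0, 2, 2, 1, 2, 0, 0, 0],
   [0, 1, 0, 2, 2, 0, 2, 0, 1, 1, 0, 2, 1, 2, 0, 2, 0, 1, 2, 0, 0]]

def Bt : List (List ℕ) :=
  [[0, 2, 2, 2, 2, 2, 2, 2, 2, 2, 2, 1, 1, 1, 1, 1, 1, 1, 1, 1, 1],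
   [2, 0, 2, 2, 2, 2, 2, 1, 1, 1, 1, 2, 1, 1, 1, 2, 2, 1, 1, 2, 1],
   [2, 2, 0, 2, 2, 2, 1, 2, 1, 1, 1, 2, 2, 1, 1, 1, 1, 2, 1, 1, 2],
   [2, 2, 2, 0, 2, 2, 1, 1, 2, 1, 1, 1, 2, 2, 1, 1, 2, 1, 2, 1, 1],
   [2, 2, 2, 2, 0, 2, 1, 1, 1, 2, 1, 1, 1, 2, 2, 1, 1, 2, 1, 2, 1],
   [2, 2, 2, 2, 2, 0, 1, 1, 1, 1, 2, 1, 1, 1, 2, 2, 1, 1, 2, 1, 2],
   [2, 2, 1, 1, 1, 1, 0, 2, 2, 2, 2, 2, 1, 1, 1, 2, 2, 1, 1, 2, 1],
   [2, 1, 2, 1, 1, 1, 2, 0, 2, 2, 2, 2, 2, 1, 1, 1, 1, 2, 1, 1, 2],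
   [2, 1, 1, 2, 1, 1, 2, 2, 0, 2, 2, 1, 2, 2, 1, 1, 2, 1, 2, 1, 1],
   [2, 1, 1, 1, 2, 1, 2, 2, 2, 0, 2, 1, 1, 2, 2, 1, 1, 2, 1, 2, 1],
   [2, 1, 1, 1, 1, 2, 2, 2, 2, 2, 0, 1, 1, 1, 2, 2, 1, 1, 2, 1, 2],
   [1, 2, 2, 1, 1, 1, 2, 2, 1, 1, 1, 0, 2, 1, 1, 2, 2, 2, 1, 2, 2],
   [1, 1, 2, 2, 1, 1, 1, 2, 2, 1, 1, 2, 0, 2, 1, 1, 2, 2, 2, 1, 2],
   [1, 1, 1, 2, 2, 1, 1, 1, 2, 2, 1, 1, 2, 0, 2, 1, 2, 2, 2, 2, 1],
   [1, 1, 1, 1, 2, 2, 1, 1, 1, 2, 2, 1, 1, 2, 0, 2, 1, 2, 2, 2, 2],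
   [1, 2, 1, 1, 1, 2, 2, 1, 1, 1, 2, 2, 1, 1, 2, 0, 2, 1, 2, 2, 2],
   [1, 2, 1, 2, 1, 1, 2, 1, 2, 1, 1, 2, 2, 2, 1, 2, 0, 1, 2, 2, 1],
   [1, 1, 2, 1, 2, 1, 1, 2, 1, 2, 1, 2, 2, 2, 2, 1, 1, 0, 1, 2, 2],
   [1, 1, 1, 2, 1, 2, 1, 1, 2, 1, 2, 1, 2, 2, 2, 2, 2, 1, 0, 1, 2],
   [1, 2, 1, 1, 2, 1, 2, 1, 1, 2, 1, 2, 1, 2, 2, 2, 2, 2, 1, 0, 1],
   [1, 1, 2, 1, 1, 2, 1, 2, 1, 1, 2, 2, 2, 1, 2, 2, 1, 2, 2, 1, 0]]

def Gt : List (List ℕ) :=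
  [[0, 2, 1, 1, 1, 1, 1, 2, 2, 2, 2, 1, 2, 2, 1, 2, 2, 2, 2, 2, 1],
   [2, 2, 1, 1, 1, 1, 2, 1, 1, 1, 1, 2, 2, 2, 1, 2, 2, 2, 1, 2, 2],
   [2, 2, 1, 2, 1, 1, 1, 1, 2, 1, 1, 2, 1, 2, 1, 2, 2, 1, 1, 2, 1],
   [2, 2, 1, 1, 2, 1, 2, 2, 1, 2, 1, 2, 2, 1, 2, 2, 2, 2, 1, 2, 2],
   [2, 2, 1, 1, 1, 2, 2, 1, 2, 1, 1, 2, 2, 2, 1, 1, 2, 2, 1, 2, 1],
   [2, 2, 1, 1, 1, 1, 1, 1, 1, 1, 1, 2, 1, 1, 2, 2, 2, 1, 2, 2, 1],
   [0, 1, 1, 1, 1, 1, 2, 2, 2, 2, 2, 1, 1, 1, 1, 1, 1, 1, 1, 1, 2],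
   [1, 1, 2, 2, 1, 1, 1, 1, 1, 1, 1, 2, 2, 1, 1, 2, 1, 1, 1, 2, 1],
   [1, 2, 2, 2, 2, 2, 1, 2, 1, 1, 1, 1, 1, 2, 1, 1, 2, 2, 1, 1, 1],
   [1, 2, 1, 2, 2, 1, 1, 2, 2, 1, 1, 2, 2, 1, 2, 2, 2, 1, 2, 2, 1],
   [1, 1, 1, 1, 1, 2, 1, 2, 2, 2, 1, 2, 1, 2, 1, 2, 2, 2, 1, 2, 1],
   [2, 1, 2, 1, 1, 2, 2, 1, 1, 1, 2, 2, 2, 1, 2, 1, 2, 1, 2, 2, 1],
   [2, 1, 2, 1, 1, 1, 1, 1, 2, 1, 1, 2, 1, 1, 1, 1, 2, 1, 1, 1, 1],
   [2, 1, 1, 2, 1, 2, 1, 1, 1, 2, 1, 1, 1, 1, 1, 1, 2, 1, 1, 2, 1],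
   [1, 1, 1, 1, 2, 1, 1, 1, 1, 1, 2, 1, 1, 1, 1, 2, 1, 1, 1, 2, 1],
   [2, 1, 2, 2, 2, 2, 2, 2, 2, 2, 1, 2, 2, 2, 1, 2, 2, 2, 1, 2, 1],
   [0, 1, 1, 2, 1, 1, 2, 1, 1, 1, 1, 2, 2, 1, 1, 1, 2, 1, 1, 2, 1],
   [1, 2, 2, 1, 1, 1, 2, 1, 1, 1, 1, 2, 1, 1, 1, 2, 2, 1, 1, 2, 1],
   [1, 2, 1, 2, 1, 1, 2, 1, 1, 1, 1, 2, 1, 1, 1, 2, 2, 1, 1, 2, 1],
   [1, 1, 2, 1, 2, 1, 2, 1, 1, 1, 1, 2, 1, 2, 1, 1, 2, 2, 1, 2, 2],
   [1, 2, 2, 1, 1, 1, 2, 1, 1, 1, 1, 2, 1, 1, 1, 2, 2, 1, 1, 2, 1]]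

def Btab : List (List ℕ) :=
  [[0, 0, 0, 3, 1, 3, 0, 0, 3, 2, 3, 0, 0, 0, 0, 0, 3, 3, 3, 3, 3],
   [0, 3, 0, 0, 3, 1, 3, 0, 0, 3, 2, 0, 0, 0, 0, 0, 3, 3, 3, 3, 3],
   [0, 1, 3, 0, 0, 3, 2, 3, 0, 0, 3, 0, 0, 0, 0, 0, 3, 3, 3, 3, 3],
   [0, 3, 1, 3, 0, 0, 3, 2, 3, 0, 0, 0, 0, 0, 0, 0, 3, 3, 3, 3, 3],
   [0, 0, 3, 1, 3, 0, 0, 3, 2, 3, 0, 0, 0, 0, 0, 0, 3, 3, 3, 3, 3],
   [0, 0, 3, 0, 0, 0, 0, 1, 0, 0, 0, 0, 0, 0, 0, 0, 0, 2, 0, 0, 2],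
   [0, 3, 2, 2, 3, 2, 1, 2, 2, 1, 2, 0, 0, 0, 0, 0, 0, 0, 2, 0, 2],
   [0, 2, 3, 2, 3, 2, 2, 1, 2, 1, 2, 0, 0, 0, 0, 0, 2, 0, 2, 0, 0],
   [0, 3, 0, 0, 0, 0, 1, 0, 0, 0, 0, 0, 0, 0, 0, 0, 2, 0, 0, 2, 0],
   [0, 0, 0, 3, 0, 0, 0, 0, 1, 0, 0, 0, 0, 0, 0, 0, 2, 0, 2, 0, 0],
   [0, 2, 3, 2, 2, 3, 2, 1, 2, 2, 1, 0, 0, 0, 0, 0, 2, 0, 0, 2, 0],
   [0, 2, 2, 3, 2, 3, 2, 2, 1, 2, 1, 0, 0, 0, 0, 0, 0, 2, 0, 2, 0],
   [0, 0, 0, 0, 3, 0, 0, 0, 0, 1, 0, 0, 0, 0, 0, 0, 0, 2, 0, 2, 0],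
   [0, 3, 2, 3, 2, 2, 1, 2, 1, 2, 2, 0, 0, 0, 0, 0, 0, 2, 0, 0, 2],
   [0, 0, 0, 0, 0, 3, 0, 0, 0, 0, 1, 0, 0, 0, 0, 0, 0, 0, 2, 0, 2]]

/-- entry -/
def en (t : List (List ℕ)) (i j : ℕ) : ℕ := (t.getD i []).getD j 0

/-- inverse of `sp` -/
def spi : Fin 21 → Fin 21 :=
  ![0, 5, 1, 2, 3, 4, 10, 6, 7, 8, 9, 15, 11, 12, 13, 14, 20, 16, 17, 18, 19]

/-- inverse of `tp` -/
def tpi : Fin 21 → Fin 21 :=
  ![1, 6, 11, 16, 19, 15, 0, 2, 3, 4, 5, 7, 12, 13, 14, 10, 8, 17, 18, 9, 20]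

/-- base pairs -/
def bp : ℕ → Fin 21 × Fin 21
  | 0 => (0, 0)
  | 1 => (16, 0)
  | _ => (6, 0)

theorem chk : ∀ p q : Fin 21,
    (en Gt p q = 0 ∧ en Rt p q = 0 ∧ en Et p q = 0 ∧ (p, q) = bp (en Bt p q)) ∨
    (sp (spi p) = p ∧ sp (spi q) = q ∧ en Rt (spi p) (spi q) < en Rt p q ∧ en Bt (spi p) (spi q) = en Bt p q ∧
      en Et p q = en Et (spi p) (spi q)) ∨
    (tp (tpi p) = p ∧ tp (tpi q) = q ∧ en Rt (tpi p) (tpi q) < en Rt p q ∧ en Bt (tpi p) (tpi q) = en Bt p q ∧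
      en Et p q % 3 = (en Et (tpi p) (tpi q) + (nt (tpi p) + 2 * nt (tpi q))) % 3) := by
  decide +kernel

theorem chk2 : ∀ p q : Fin 21,
    (en Bt p q = 0 ∧ p = q ∧ Hm q p = 0 ∧ en Et p q = 0) ∨
    (en Bt p q = 1 ∧ p ≠ q ∧ ((en Et p q = 0 ∧ Hm q p = 1) ∨ (en Et p q = 1 ∧ Hm q p = KF.mk 2) ∨
      (en Et p q = 2 ∧ Hm q p = KF.mk 3))) ∨
    (en Bt p q = 2 ∧ p ≠ q ∧ Hm q p = 0) := by
  decide +kernel

section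
variable {F : Type u} [Field F] {ω : F}

theorem w3 (h2 : (2 : F) = 0) (hω : ω * ω = ω + 1) : ω ^ 3 = 1 := by
  linear_combination (ω + 1) * hω + ω * h2

theorem pow_mod3 (h3 : ω ^ 3 = 1) (n : ℕ) : ω ^ n = ω ^ (n % 3) := by
  conv_lhs => rw [← Nat.div_add_mod n 3, pow_add, pow_mul, h3, one_pow, one_mul]

theorem pow_inj3 (h3 : ω ^ 3 = 1) (hw : ω ≠ 0) (hw1 : ω ≠ 1) :
    ∀ i j : ℕ, i < 3 → j < 3 → ω ^ i = ω ^ j → i = j := by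
  have e3 : ω ^ 2 ≠ 1 := by
    intro h
    apply hw1
    have : ω ^ 3 = ω ^ 2 * ω := by ring
    rw [h3, h, one_mul] at this
    exact this.symm
  have e4 : ω ^ 2 ≠ ω := by
    intro h
    apply hw1
    have : ω * ω = ω * 1 := by rw [← sq, h, mul_one]
    exact mul_left_cancel₀ hw this
  intro i j hi hj hij
  interval_cases i <;> interval_cases j
  · rfl
  · exact absurd (by rw [pow_zero, pow_one] at hij; exact hij.symm) hw1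
  · exact absurd (by rw [pow_zero] at hij; exact hij.symm) e3
  · exact absurd (by rw [pow_zero, pow_one] at hij; exact hij) hw1
  · rfl
  · exact absurd (by rw [pow_one] at hij; exact hij.symm) e4
  · exact absurd (by rw [pow_zero] at hij; exact hij) e3
  · exact absurd (by rw [pow_one] at hij; exact hij) e4
  · rfl

theorem gram_fun (h2 : (2 : F) = 0) (hω : ω * ω = ω + 1) (g : Fin 21 → Fin 21 → F)
    (hS : ∀ p q, g (sp p) (sp q) = g p q) (hT : ∀ p q, g (tp p) (tp q) = ω ^ (nt p + 2 * nt q) * g p q) :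
    ∃ α β : F, ∀ p q, g p q = α * (if p = q then 1 else 0) + β * KF.io ω (Hm q p) := by
  have h3 := w3 h2 hω
  have key : ∀ n : ℕ, ∀ p q : Fin 21, en Rt p q = n →
      g p q = ω ^ en Et p q * g (bp (en Bt p q)).1 (bp (en Bt p q)).2 := by
    intro n
    induction n using Nat.strong_induction_on with
    | _ n ih =>
      intro p q hn
      rcases chk p q with ⟨_, _, h4, h5⟩ | ⟨h4, h5, h6, h7, h8⟩ | ⟨h4, h5, h6, h7, h8⟩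
      · rw [← h5, h4, pow_zero, one_mul]
      · have h9 := ih _ (hn ▸ h6) (spi p) (spi q) rfl
        rw [h7] at h9
        rw [h8, ← h9, ← hS (spi p) (spi q), h4, h5]
      · have h9 := ih _ (hn ▸ h6) (tpi p) (tpi q) rfl
        rw [h7] at h9
        have h10 := hT (tpi p) (tpi q)
        rw [h4, h5, h9, ← mul_assoc, ← pow_add] at h10
        rw [h10, pow_mod3 h3 (en Et p q), h8, ← pow_mod3 h3, add_comm]
  have hw : ω ≠ 0 := by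
    rintro rfl
    rw [mul_zero, zero_add] at hω
    exact zero_ne_one hω
  have hw1 : ω ≠ 1 := by
    rintro rfl
    have : (1 : F) = 0 := by linear_combination -hω + 0 * h2
    exact one_ne_zero this
  have h0 : g 6 0 = 0 := by
    have a1 := key _ 13 12 rfl
    have a2 := key _ (tp 13) (tp 12) rfl
    rw [hT 13 12] at a2
    rw [show en Bt (13 : Fin 21) (12 : Fin 21) = 2 by decide +kernel] at a1
    rw [show en Bt (tp 13 : Fin 21) (tp 12 : Fin 21) = 2 by decide +kernel] at a2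
    rw [a1] at a2
    have e1 : (bp 2).1 = 6 := rfl
    have e2 : (bp 2).2 = 0 := rfl
    rw [e1, e2] at a2
    by_contra h5
    have a3 : ω ^ (nt 13 + 2 * nt 12) * ω ^ en Et (13 : Fin 21) (12 : Fin 21) = ω ^ en Et (tp 13 : Fin 21) (tp 12 : Fin 21) :=
      mul_right_cancel₀ h5 (by rw [mul_assoc]; exact a2)
    rw [← pow_add, pow_mod3 h3, pow_mod3 h3 (en Et _ _)] at a3
    have a4 : (nt 13 + 2 * nt 12 + en Et (13 : Fin 21) (12 : Fin 21)) % 3 ≠ en Et (tp 13 : Fin 21) (tp 12 : Fin 21) % 3 := by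
      decide +kernel
    have hinj := pow_inj3 h3 hw hw1
    exact a4 (hinj _ _ (Nat.mod_lt _ (by norm_num)) (Nat.mod_lt _ (by norm_num)) a3)
  refine ⟨g 0 0, g 16 0, fun p q => ?_⟩
  have h4 := key _ p q rfl
  rcases chk2 p q with ⟨h5, h6, h7, h8⟩ | ⟨h5, h6, h7⟩ | ⟨h5, h6, h7⟩
  · rw [h5, h8] at h4
    rw [if_pos h6, h7, KF.io_zero, h4]
    show ω ^ 0 * g 0 0 = _
    ring
  · rw [h5] at h4
    rw [if_neg h6, h4]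
    show ω ^ _ * g 16 0 = _
    rcases h7 with ⟨h7, h8⟩ | ⟨h7, h8⟩ | ⟨h7, h8⟩
    · rw [h7, h8, KF.io_one]; ring
    · rw [h7, h8, KF.io_two]; ring
    · rw [h7, h8, KF.io_three]; linear_combination g 16 0 * hω
  · rw [h5] at h4
    rw [if_neg h6, h7, KF.io_zero, h4]
    show ω ^ _ * g 6 0 = _
    rw [h0]; ring

end

section
variable {F : Type u} [Field F] {G : Type*} [Group G] {ω : F} {σ σ' : Representation F G (I27 → F)} {S T a : G}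

/-- B2: the Gram matrix -/
theorem gram (h2 : (2 : F) = 0) (hω : ω * ω = ω + 1) (hP : PD σ σ') {u s : Fin 21 → I27 → F}
    (hu : Fam ω σ S T u) (hs : Fam (ω ^ 2) σ' S T s) :
    ∃ α β : F, ∀ p q, tf (s p) (u q) = α * (if p = q then 1 else 0) + β * KF.io ω (Hm q p) := by
  have h3 := w3 h2 hω
  refine gram_fun h2 hω (fun p q => tf (s p) (u q)) (fun p q => ?_) (fun p q => ?_)
  · show tf (s (sp p)) (u (sp q)) = tf (s p) (u q)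
    rw [← hs.s, ← hu.s, tf_comm, hP.htf, tf_comm]
  · show tf (s (tp p)) (u (tp q)) = _ * tf (s p) (u q)
    have h4 : tf (s p) (u q) = (ω ^ 2) ^ nt p * (ω ^ nt q * tf (s (tp p)) (u (tp q))) := by
      rw [tf_comm, ← hP.htf T, hu.t, hs.t, tf_smul_left, tf_smul_right, tf_comm]; ring
    rw [h4]
    have h5 : ω ^ (nt p + 2 * nt q) * ((ω ^ 2) ^ nt p * (ω ^ nt q * tf (s (tp p)) (u (tp q)))) =
        (ω ^ 3) ^ nt p * (ω ^ 3) ^ nt q * tf (s (tp p)) (u (tp q)) := by ring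
    rw [h5, h3, one_pow, one_pow, one_mul, one_mul]

/-! ### B3 -/

/-- first index -/
def pj : Fin 15 → Fin 6 := ![0, 0, 0, 0, 0, 1, 1, 1, 1, 2, 2, 2, 3, 3, 4]
/-- second index -/
def pk : Fin 15 → Fin 6 := ![1, 2, 3, 4, 5, 2, 3, 4, 5, 3, 4, 5, 4, 5, 5]

/-- products of coordinates -/
def Cm : Matrix (Fin 21) (Fin 15) KF := fun p m => Am p (pj m) * Am p (pk m)

/-- left inverse of `Cm` -/
def Bm : Matrix (Fin 15) (Fin 21) KF := fun m p => ent Btab m p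

theorem Bm_Cm : Bm * Cm = 1 := by
  decide +kernel

theorem io_sq (h2 : (2 : F) = 0) (c : KF) : KF.io (ω ^ 2) c = KF.io ω c ^ 2 := by
  revert c
  refine KF.forall_KF ?_ ?_ ?_ ?_
  · rw [KF.io_zero, KF.io_zero]; ring
  · rw [KF.io_one, KF.io_one]; ring
  · rw [KF.io_two, KF.io_two]
  · rw [KF.io_three, KF.io_three]; linear_combination -ω * h2

theorem w2 (h2 : (2 : F) = 0) (hω : ω * ω = ω + 1) : ω ^ 2 * ω ^ 2 = ω ^ 2 + 1 := by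
  linear_combination (ω * ω + ω + 1) * hω + ω * h2

/-- coordinates of an `H`-fixed family -/
theorem HFix.coord (h2 : (2 : F) = 0) (hω : ω * ω = ω + 1) {v : Fin 21 → I27 → F} (h : HFix ω v) (p : Fin 21) :
    v p = ∑ j : Fin 6, KF.io ω (Am p j) • v (bas j) := by
  have h1 : v p = pr (KF.iota h2 hω) ((Am * Hb) p) v := by rw [Am_Hm, pr_eq_lin]; exact h p
  have h3 : (Am * Hb) p = ∑ j : Fin 6, Am p j • Hb j := by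
    funext q
    rw [Finset.sum_apply]
    rfl
  rw [h1, h3, pr_sum]
  refine Finset.sum_congr rfl fun j _ => ?_
  rw [pr_smul, pr_eq_lin]
  have h4 : lin ω (Hb j) v = v (bas j) := (h (bas j)).symm
  rw [h4]
  rfl

theorem sum15 {M : Type*} [AddCommMonoid M] (f : Fin 15 → M) : ∑ m, f m = f 0 + f 1 + f 2 + f 3 + f 4 + f 5 + f 6 +
    f 7 + f 8 + f 9 + f 10 + f 11 + f 12 + f 13 + f 14 := by
  simp only [Fin.sum_univ_castSucc, Fin.sum_univ_zero]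
  rw [zero_add]
  rfl

theorem sh_six (c : Fin 6 → F) (y : Fin 6 → I27 → F) :
    sh (∑ j, c j • y j) = ∑ j, c j ^ 2 • sh (y j) + ∑ m : Fin 15, (c (pj m) * c (pk m)) • cr (y (pj m)) (y (pk m)) := by
  rw [sum15]
  simp only [Fin.sum_univ_six, sh_add, sh_smul, cr_add_left, cr_smul_left, cr_smul_right]
  have e : ∀ (m : Fin 15) (i j : Fin 6), pj m = i → pk m = j →
      (c (pj m) * c (pk m)) • cr (y (pj m)) (y (pk m)) = (c i * c j) • cr (y i) (y j) := by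
    rintro m i j rfl rfl; rfl
  rw [e 0 0 1 rfl rfl, e 1 0 2 rfl rfl, e 2 0 3 rfl rfl, e 3 0 4 rfl rfl, e 4 0 5 rfl rfl, e 5 1 2 rfl rfl,
    e 6 1 3 rfl rfl, e 7 1 4 rfl rfl, e 8 1 5 rfl rfl, e 9 2 3 rfl rfl, e 10 2 4 rfl rfl, e 11 2 5 rfl rfl,
    e 12 3 4 rfl rfl, e 13 3 5 rfl rfl, e 14 4 5 rfl rfl]
  module

/-- the family of the `sh (x p)` -/
theorem fam_sh (hP : PD σ σ') {x : Fin 21 → I27 → F} (hx : Fam ω σ S T x) :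
    Fam (ω ^ 2) σ' S T (fun p => sh (x p)) where
  s p := by
    show σ' S (sh (x p)) = sh (x (sp p))
    rw [← hP.hsh, hx.s]
  t p := by
    show σ' T (sh (x p)) = (ω ^ 2) ^ nt p • sh (x (tp p))
    rw [← hP.hsh, hx.t, sh_smul, ← pow_mul, ← pow_mul, mul_comm (nt p) 2]

/-- the vectors `cr (x j) (x k)` vanish -/
theorem cr_bas (h2 : (2 : F) = 0) (hω : ω * ω = ω + 1) {x : Fin 21 → I27 → F} (hH : HFix ω x)
    (hs : HFix (ω ^ 2) (fun p => sh (x p))) (j k : Fin 6) : cr (x (bas j)) (x (bas k)) = 0 := by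
  have h1 : ∀ p : Fin 21, pr (KF.iota h2 hω) (Cm p) (fun m => cr (x (bas (pj m))) (x (bas (pk m)))) = 0 := by
    intro p
    have a1 := HFix.coord h2 (w2 h2 hω) hs p
    have a2 := sh_six (fun j => KF.io ω (Am p j)) (fun j => x (bas j))
    rw [← HFix.coord h2 hω hH p] at a2
    have a3 : sh (x p) = ∑ j : Fin 6, KF.io ω (Am p j) ^ 2 • sh (x (bas j)) := by
      rw [a1]
      exact Finset.sum_congr rfl fun j _ => by rw [io_sq h2]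
    rw [a3] at a2
    have a4 := add_left_cancel (a2.symm.trans (add_zero _).symm)
    rw [← a4]
    unfold pr
    refine Finset.sum_congr rfl fun m _ => ?_
    rw [show (KF.iota h2 hω) (Cm p m) = KF.io ω (Am p (pj m)) * KF.io ω (Am p (pk m)) from
      (map_mul (KF.iota h2 hω) _ _)]
  have h3 : ∀ m : Fin 15, cr (x (bas (pj m))) (x (bas (pk m))) = 0 := by
    intro m
    have b1 := pr_single (KF.iota h2 hω) m (fun m => cr (x (bas (pj m))) (x (bas (pk m))))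
    have b2 : (Pi.single m 1 : Fin 15 → KF) = ∑ p : Fin 21, Bm m p • Cm p := by
      have b3 : (Bm * Cm) m = (1 : Matrix (Fin 15) (Fin 15) KF) m := by rw [Bm_Cm]
      funext n
      have b4 := congrFun b3 n
      rw [Finset.sum_apply]
      rw [Matrix.mul_apply] at b4
      rw [show (∑ p : Fin 21, (Bm m p • Cm p) n) = ∑ p : Fin 21, Bm m p * Cm p n from rfl, b4, Matrix.one_apply,
        Pi.single_apply]
      simp only [eq_comm]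
    rw [b2, pr_sum] at b1
    rw [← b1]
    exact Finset.sum_eq_zero fun p _ => by rw [pr_smul, h1 p, smul_zero]
  have h4 : ∀ j k : Fin 6, j < k → ∃ m : Fin 15, pj m = j ∧ pk m = k := by decide
  rcases lt_trichotomy j k with h | h | h
  · obtain ⟨m, rfl, rfl⟩ := h4 j k h; exact h3 m
  · rw [h, cr_self2 h2]
  · obtain ⟨m, h5, h6⟩ := h4 k j h; rw [cr_comm, ← h5, ← h6]; exact h3 m

theorem cr_sum_zero {n : Type*} [Fintype n] {x : I27 → F} {y : n → I27 → F} (c : n → F) (h : ∀ j, cr x (y j) = 0) :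
    cr x (∑ j, c j • y j) = 0 := by
  have h1 : cr x (∑ j, c j • y j) = crB F x (∑ j, c j • y j) := rfl
  rw [h1, map_sum]
  refine Finset.sum_eq_zero fun j _ => ?_
  rw [map_smul, crB_apply, h j, smul_zero]

/-- all `cr (x p) (x q)` vanish -/
theorem cr_all (h2 : (2 : F) = 0) (hω : ω * ω = ω + 1) {x : Fin 21 → I27 → F} (hH : HFix ω x)
    (hs : HFix (ω ^ 2) (fun p => sh (x p))) (p q : Fin 21) : cr (x p) (x q) = 0 := by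
  rw [HFix.coord h2 hω hH q]
  refine cr_sum_zero _ fun k => ?_
  rw [HFix.coord h2 hω hH p, cr_comm]
  refine cr_sum_zero _ fun j => ?_
  exact cr_bas h2 hω hH hs k j

theorem finrank_fam (h2 : (2 : F) = 0) (hω : ω * ω = ω + 1) {x : Fin 21 → I27 → F} (hH : HFix ω x) :
    finrank F ↥(Submodule.span F (Set.range x)) ≤ 6 := by
  have h1 : Submodule.span F (Set.range x) ≤ Submodule.span F (Set.range (fun j : Fin 6 => x (bas j))) := by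
    rw [Submodule.span_le]
    rintro _ ⟨p, rfl⟩
    rw [HFix.coord h2 hω hH p]
    exact Submodule.sum_mem _ fun j _ => Submodule.smul_mem _ _ (Submodule.subset_span ⟨j, rfl⟩)
  refine (Submodule.finrank_mono h1).trans ?_
  exact (finrank_range_le_card (R := F) (fun j : Fin 6 => x (bas j))).trans (by simp)

theorem fam_span_s {x : Fin 21 → I27 → F} (hx : Fam ω σ S T x) :
    ∀ w ∈ Submodule.span F (Set.range x), σ S w ∈ Submodule.span F (Set.range x) := by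
  intro w hw
  induction hw using Submodule.span_induction with
  | mem w hw => obtain ⟨p, rfl⟩ := hw; rw [hx.s]; exact Submodule.subset_span ⟨_, rfl⟩
  | zero => rw [map_zero]; exact Submodule.zero_mem _
  | add a b _ _ ha hb => rw [map_add]; exact Submodule.add_mem _ ha hb
  | smul c a _ ha => rw [map_smul]; exact Submodule.smul_mem _ _ ha

theorem fam_span_t {x : Fin 21 → I27 → F} (hx : Fam ω σ S T x) :
    ∀ w ∈ Submodule.span F (Set.range x), σ T w ∈ Submodule.span F (Set.range x) := by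
  intro w hw
  induction hw using Submodule.span_induction with
  | mem w hw => obtain ⟨p, rfl⟩ := hw; rw [hx.t]; exact Submodule.smul_mem _ _ (Submodule.subset_span ⟨_, rfl⟩)
  | zero => rw [map_zero]; exact Submodule.zero_mem _
  | add a b _ _ ha hb => rw [map_add]; exact Submodule.add_mem _ ha hb
  | smul c a _ ha => rw [map_smul]; exact Submodule.smul_mem _ _ ha

/-- B3 with the `H`-fixed family `sh (x p)` as hypothesis -/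
theorem dead' (h : Dat ω σ σ' S T a) {x : Fin 21 → I27 → F} (hx : Fam ω σ S T x) (hH : HFix ω x) (h0 : x 0 ≠ 0)
    (hs : HFix (ω ^ 2) (fun p => sh (x p))) : False := by
  have h2 := h.h2
  have hω := h.hω
  have hcr := cr_all h2 hω hH hs
  have hf := fam_sh h.pd hx
  obtain ⟨α, β, hg⟩ := gram h2 hω h.pd hx hf
  have h3 : (3 : F) = 1 := by linear_combination h2
  have hx1 : x 1 ≠ 0 := by
    intro h1
    have := hx.t 1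
    rw [h1, map_zero] at this
    apply h0
    have e : ω ^ nt 1 • x (tp 1) = x 0 := by
      show ω ^ 0 • x 0 = x 0
      rw [pow_zero, one_smul]
    rw [e] at this
    exact this.symm
  have a1 : Cfsg.Lie.cubicT (x 0) = 0 := by
    have b1 := cr_sh_cr (x 0) (x 1)
    have b2 : tf (sh (x 0)) (x 1) = 0 := by
      rw [hg 0 1, if_neg (by decide), show Hm 1 0 = 0 by decide +kernel, KF.io_zero]; ring
    rw [hcr, cr_zero_right, b2, zero_smul, add_zero] at b1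
    exact (smul_eq_zero.1 b1.symm).resolve_right hx1
  have a2 : tf (sh (x 0)) (x 0) = 0 := by rw [tf_sh_self, a1, mul_zero]
  have a3 : tf (sh (x 0)) (x 11) = 0 := by
    have b1 := cr_sh_cr (x 0) (x 11)
    rw [hcr, cr_zero_right, a1, zero_smul, zero_add] at b1
    exact (smul_eq_zero.1 b1.symm).resolve_right h0
  have a4 : α = 0 := by
    have := hg 0 0
    rw [a2, if_pos rfl, show Hm 0 0 = 0 by decide +kernel, KF.io_zero] at this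
    linear_combination -this
  have a5 : β = 0 := by
    have := hg 0 11
    rw [a3, if_neg (by decide), show Hm 11 0 = KF.mk 3 by decide +kernel, KF.io_three] at this
    have e : (1 + ω) * ω = 1 := by linear_combination hω + ω * h2
    linear_combination -β * e - ω * this + 0 * h2
  have a6 : ∀ p q, tf (sh (x p)) (x q) = 0 := by
    intro p q; rw [hg, a4, a5]; ring
  have a7 : ∀ p, Cfsg.Lie.cubicT (x p) = 0 := by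
    intro p
    have := tf_sh_self (x p)
    rw [a6, h3, one_mul] at this
    exact this.symm
  have a8 : ∀ p, sh (sh (x p)) = 0 := by
    intro p; rw [sh_sh, a7, zero_smul]
  have a9 : ∀ p q, cr (sh (x p)) (sh (x q)) = 0 := by
    intro p q
    have := sh_cr (x p) (x q)
    rw [hcr, sh_zero, zero_add, a6, tf_comm, a6, zero_smul, zero_smul, add_zero] at this
    exact this
  have b1 := ts_span a8 a9
  have b2 : Submodule.span F (Set.range (fun p => sh (x p))) = ⊥ := by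
    by_contra hne
    exact h.half'.nots _ (fam_span_s hf) (fam_span_t hf) hne (finrank_fam h2 (w2 h2 hω) hs) b1
  have b3 : ∀ p, sh (x p) = 0 := by
    intro p
    have : sh (x p) ∈ Submodule.span F (Set.range (fun p => sh (x p))) := Submodule.subset_span ⟨p, rfl⟩
    rw [b2] at this
    exact (Submodule.mem_bot F).1 this
  refine h.half.nots _ (fam_span_s hx) (fam_span_t hx) ?_ (finrank_fam h2 hω hH) (ts_span b3 hcr)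
  intro hb
  have : x 0 ∈ Submodule.span F (Set.range x) := Submodule.subset_span ⟨0, rfl⟩
  rw [hb] at this
  exact h0 ((Submodule.mem_bot F).1 this)

end

end Cfsg.Agent.H288.E6.S7B3
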